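import Cfsg.Agent.H985.VZ.Alpha
import Cfsg.Agent.ChevalleyStructure.SL2Hom

/-!
# Balanced rank one groups: images of `SL₂` (helper769, S4842)

`f : SL(2, K) →* Y`, `X (sr i)` the image of the upper unitriangular matrices, the diagonal matrices in `T`,
`n i` the image of an antidiagonal matrix: `Bal X T n i`.
-/

set_option autoImplicit false
set_option linter.unusedSectionVars false

namespace Cfsg.Agent.H769.OZ

open CoxeterSystem Cfsg Cfsg.Agent.ChevalleyStructure.CoxeterGeom Cfsg.Agent.Tits.Roots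
open Cfsg.Agent.Tits.Core Cfsg.Agent.Tits.RootComb
open Cfsg.Agent.Nodes.Comb Cfsg.Agent.Nodes.Reps Cfsg.Agent.Nodes.BNOf Cfsg.Agent.Nodes.OppDec
open Cfsg.Agent.ChevalleyStructure.SL2Hom Cfsg.Agent.H985.VZ
open Matrix

section mat

variable {K : Type*} [Field K]

/-- the underlying matrix -/
def mt (g : SpecialLinearGroup (Fin 2) K) : Matrix (Fin 2) (Fin 2) K := g.1

theorem mt_inj {g k : SpecialLinearGroup (Fin 2) K} (h : mt g = mt k) : g = k := Subtype.ext h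

theorem mt_mul (g k : SpecialLinearGroup (Fin 2) K) : mt (g * k) = mt g * mt k := rfl

theorem mt_one : mt (1 : SpecialLinearGroup (Fin 2) K) = 1 := rfl

/-- the diagonal matrix -/
def dg (a : Kˣ) : SpecialLinearGroup (Fin 2) K := ⟨!![(a : K), 0; 0, (a⁻¹ : Kˣ)], by simp⟩

/-- the antidiagonal matrix -/
def wm : SpecialLinearGroup (Fin 2) K := ⟨!![0, 1; -1, 0], by simp⟩

theorem coe_dg (a : Kˣ) : mt (dg a) = !![(a : K), 0; 0, (a : K)⁻¹] := by
  rw [← Units.val_inv_eq_inv_val]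
  rfl

theorem coe_wm : mt (wm : SpecialLinearGroup (Fin 2) K) = !![0, 1; -1, 0] := rfl

theorem coe_up (c : K) : mt (up c) = !![1, c; 0, 1] := rfl

theorem dg_mul (a b : Kˣ) : dg a * dg b = dg (a * b) := by
  apply mt_inj
  rw [mt_mul, coe_dg, coe_dg, coe_dg, Matrix.mul_fin_two, Units.val_mul]
  simp [mul_comm]

theorem dg_one : dg (1 : Kˣ) = 1 := by
  apply mt_inj
  rw [coe_dg, mt_one, Matrix.one_fin_two]
  simp

theorem dg_inv (a : Kˣ) : (dg a)⁻¹ = dg a⁻¹ := by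
  rw [inv_eq_iff_mul_eq_one, dg_mul, mul_inv_cancel, dg_one]

theorem up_mul (a b : K) : up a * up b = up (a + b) := by
  apply mt_inj
  rw [mt_mul, coe_up, coe_up, coe_up, Matrix.mul_fin_two]
  simp [add_comm]

theorem up_zero : up (0 : K) = 1 := by
  apply mt_inj
  rw [coe_up, mt_one, Matrix.one_fin_two]

theorem up_inv (a : K) : (up a)⁻¹ = up (-a) := by
  rw [inv_eq_iff_mul_eq_one, up_mul, add_neg_cancel, up_zero]

/-- `n u(c) = u(e) h(a/c) n u(e) n` -/
theorem key_eq (a c : Kˣ) : (dg a * wm) * up (c : K) =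
    up (-((a : K) ^ 2 * (c : K)⁻¹)) * (dg (a * c⁻¹) * (dg a * wm)) * up (-((a : K) ^ 2 * (c : K)⁻¹)) * (dg a * wm) := by
  have ha : (a : K) ≠ 0 := a.ne_zero
  have hc : (c : K) ≠ 0 := c.ne_zero
  apply mt_inj
  simp only [mt_mul, coe_dg, coe_up, coe_wm, Matrix.mul_fin_two, Units.val_mul,
    Units.val_inv_eq_inv_val]
  congr 1
  funext i
  fin_cases i <;> (funext j; fin_cases j <;> simp <;> field_simp <;> ring)

/-- decomposition of the matrices -/
theorem exists_bruhat (g : SpecialLinearGroup (Fin 2) K) :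
    (∃ (a : Kˣ) (c : K), g = dg a * up c) ∨ ∃ (c d : K) (a : Kˣ), g = up c * (dg a * wm) * up d := by
  have hdet : mt g 0 0 * mt g 1 1 - mt g 0 1 * mt g 1 0 = 1 := by
    have := g.2
    rw [Matrix.det_fin_two] at this
    exact this
  by_cases h : mt g 1 0 = 0
  · left
    rw [h, mul_zero, sub_zero] at hdet
    have h0 : mt g 0 0 ≠ 0 := left_ne_zero_of_mul_eq_one hdet
    refine ⟨Units.mk0 _ h0, (mt g 0 0)⁻¹ * mt g 0 1, ?_⟩
    apply mt_inj
    have h1 : mt g 1 1 = (mt g 0 0)⁻¹ := eq_inv_of_mul_eq_one_right hdet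
    rw [mt_mul, coe_dg, coe_up, Matrix.mul_fin_two]
    simp only [Units.val_mk0]
    conv_lhs => rw [Matrix.eta_fin_two (mt g)]
    simp only [h, h1]
    simp [mul_inv_cancel_left₀ h0]
  · right
    refine ⟨mt g 0 0 * (mt g 1 0)⁻¹, (mt g 1 0)⁻¹ * mt g 1 1, Units.mk0 (-(mt g 1 0)⁻¹) (by simpa using h), ?_⟩
    apply mt_inj
    have h1 : mt g 0 1 = (mt g 0 0 * mt g 1 1 - 1) * (mt g 1 0)⁻¹ := by
      rw [eq_mul_inv_iff_mul_eq₀ h]
      linear_combination -hdet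
    rw [mt_mul, mt_mul, mt_mul, coe_dg, coe_up, coe_up,
      coe_wm, Matrix.mul_fin_two, Matrix.mul_fin_two, Matrix.mul_fin_two]
    conv_lhs => rw [Matrix.eta_fin_two (mt g)]
    simp only [Units.val_mk0]
    rw [h1]
    simp
    field_simp
    ring_nf
    simp

end mat

section main

variable {I W Y : Type*} [Fintype I] [DecidableEq I] [Group W] [Group Y] {M : CoxeterMatrix I}
  {cs : CoxeterSystem M W} {A : I → I → ℤ} {h : IsCartan M A} {p : ℕ} {T : Subgroup Y} {n : I → Y}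
  {X : (I → ℤ) → Subgroup Y} (R : RGD cs h p T n X) {i : I} {K : Type*} [Field K]
  (f : SpecialLinearGroup (Fin 2) K →* Y)

include R

/-- **the images of `SL₂` are balanced** -/
theorem bal_SL [Finite W] [Finite K] (hU : ∀ y, y ∈ X (sr i) ↔ ∃ c, y = f (up c)) (hinj : ∀ c, f (up c) = 1 → c = 0)
    (hT : ∀ a : Kˣ, f (dg a) ∈ T) (hn : ∃ a : Kˣ, n i = f (dg a * wm)) : Bal X T n i := by
  obtain ⟨a0, hn⟩ := hn
  -- the kernel
  let Z : Set Kˣ := {z | f (dg z) = 1}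
  refine ⟨Nat.card Z, fun t ht htL => ?_⟩
  -- `t = f (dg a)`
  have hrange : Li X i ≤ f.range := by
    have h1 : X (sr i) ≤ f.range := by
      intro y hy
      obtain ⟨c, rfl⟩ := (hU y).1 hy
      exact ⟨_, rfl⟩
    refine sup_le h1 ?_
    intro y hy
    have h2 : (n i)⁻¹ * y * n i ∈ X (sr i) := by
      have h5 := R.conj_mem' (rp_simple cs R.nsys i) (isRoot_sr cs h i).neg hy
      rwa [inv_simple, map_neg, rep_simple_sr, neg_neg] at h5
    have h3 : n i ∈ f.range := ⟨_, hn.symm⟩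
    have h4 : y = n i * ((n i)⁻¹ * y * n i) * (n i)⁻¹ := by group
    rw [h4]
    exact mul_mem (mul_mem h3 (h1 h2)) (inv_mem h3)
  have hXT : ∀ y, y ∈ X (sr i) → y ∈ T → y = 1 := by
    intro y hy hyT
    have h1 := X_inf_T R (isRoot_sr cs h i)
    rw [eq_bot_iff] at h1
    exact h1 ⟨hy, hyT⟩
  obtain ⟨g, hg⟩ := hrange htL
  obtain ⟨a, rfl⟩ : ∃ a : Kˣ, t = f (dg a) := by
    rcases exists_bruhat g with ⟨a, c, e⟩ | ⟨c, d, a, e⟩
    · refine ⟨a, ?_⟩
      rw [e, map_mul] at hg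
      have h1 : f (up c) = 1 := by
        refine hXT _ ((hU _).2 ⟨c, rfl⟩) ?_
        have : f (up c) = (f (dg a))⁻¹ * t := by rw [← hg]; group
        rw [this]
        exact mul_mem (inv_mem (hT a)) ht
      rw [← hg, h1, mul_one]
    · exfalso
      have h1 : t = f (up c) * (f (dg (a * a0⁻¹)) * n i) * f (up d) := by
        rw [← hg, e, hn, ← map_mul, ← map_mul, ← map_mul, ← mul_assoc (dg (a * a0⁻¹)), dg_mul, inv_mul_cancel_right]
      -- `n i ∈ B`
      refine not_rel_one (n := n) (i := i) R (t := t⁻¹ * f (dg (a * a0⁻¹))) (mul_mem (inv_mem ht) (hT _))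
        ⟨t⁻¹ * f (up c) * t, ?_, f (up d), (hU _).2 ⟨_, rfl⟩, ?_⟩
      · have h3 := R.conj_mem (rp_of_mem (cs := cs) (hN := R.nsys) (inv_mem ht)) (isRoot_sr cs h i)
          ((hU (f (up c))).2 ⟨_, rfl⟩)
        rwa [inv_inv, map_one] at h3
      · calc n i * 1 * (n i)⁻¹ = t⁻¹ * t := by group
          _ = t⁻¹ * (f (up c) * (f (dg (a * a0⁻¹)) * n i) * f (up d)) := by rw [← h1]
          _ = _ := by group
  -- the value of `t` at `up c`
  have key : ∀ c : Kˣ, RelX X n i (f (up (c : K))) (f (dg (a0 * c⁻¹))) := by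
    intro c
    have h1 := congrArg f (key_eq a0 c)
    refine ⟨f (up (-((a0 : K) ^ 2 * (c : K)⁻¹))), (hU _).2 ⟨_, rfl⟩, f (up (-((a0 : K) ^ 2 * (c : K)⁻¹))),
      (hU _).2 ⟨_, rfl⟩, ?_⟩
    simp only [map_mul] at h1 hn
    rw [hn, mul_inv_eq_iff_eq_mul]
    simp only [mul_assoc] at h1 ⊢
    exact h1
  have huniq : ∀ c : Kˣ, RelX X n i (f (up (c : K))) (f (dg a)) ↔ f (dg (a0 * c⁻¹)) = f (dg a) := by
    intro c
    constructor
    · intro e
      exact rel_unique R (hT _) (hT _) (key c) e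
    · intro e
      rw [← e]
      exact key c
  have hz : ∀ z : Kˣ, f (dg (a0 * (a0 * a⁻¹ * z)⁻¹)) = f (dg a) ↔ f (dg z) = 1 := by
    intro z
    have e : a0 * (a0 * a⁻¹ * z)⁻¹ = a * z⁻¹ := by
      rw [_root_.mul_inv_rev, _root_.mul_inv_rev, inv_inv, mul_comm z⁻¹, ← mul_assoc, mul_comm a a0⁻¹, ← mul_assoc, mul_inv_cancel,
        one_mul]
    rw [e, ← dg_mul, map_mul, ← dg_inv, map_inv]
    constructor
    · intro h1
      have := mul_left_cancel (h1.trans (mul_one _).symm)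
      rwa [inv_eq_one] at this
    · intro h1
      rw [h1, inv_one, mul_one]
  refine (Nat.card_congr (Equiv.ofBijective (fun z : Z => (⟨⟨f (up ((a0 * a⁻¹ * z.1 : Kˣ) : K)), (hU _).2 ⟨_, rfl⟩⟩,
    (huniq _).2 ((hz _).2 z.2)⟩ : {x : X (sr i) // RelX X n i x (f (dg a))})) ⟨?_, ?_⟩)).symm
  · rintro ⟨z, hz1⟩ ⟨z', hz1'⟩ e
    have e1 : f (up ((a0 * a⁻¹ * z : Kˣ) : K)) = f (up ((a0 * a⁻¹ * z' : Kˣ) : K)) :=
      congrArg (fun q => (q.1.1 : Y)) e
    have e2 : f (up (((a0 * a⁻¹ * z : Kˣ) : K) - ((a0 * a⁻¹ * z' : Kˣ) : K))) = 1 := by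
      rw [sub_eq_add_neg, ← up_mul, map_mul, ← up_inv, map_inv, e1, mul_inv_cancel]
    have e3 := sub_eq_zero.1 (hinj _ e2)
    apply Subtype.ext
    exact mul_left_cancel (Units.ext e3)
  · rintro ⟨⟨x, hx⟩, hx'⟩
    obtain ⟨c, rfl⟩ := (hU x).1 hx
    have hc : c ≠ 0 := by
      rintro rfl
      have h1 : (1 : Y) = f (up 0) := by rw [up_zero, map_one]
      refine not_rel_one (i := i) R (hT a) ?_
      rw [h1]
      exact hx'
    have h1 := (huniq (Units.mk0 c hc)).1 hx'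
    refine ⟨⟨(a0 * a⁻¹)⁻¹ * Units.mk0 c hc, ?_⟩, ?_⟩
    · show f (dg _) = 1
      rw [← hz, mul_inv_cancel_left]
      exact h1
    · apply Subtype.ext
      apply Subtype.ext
      simp only [mul_inv_cancel_left, Units.val_mk0]

omit R in
theorem qq_SL (hU : ∀ y, y ∈ X (sr i) ↔ ∃ c, y = f (up c)) (hinj : ∀ c, f (up c) = 1 → c = 0) :
    qq X i = Nat.card K := by
  unfold qq
  refine (Nat.card_congr (Equiv.ofBijective (fun c : K => (⟨f (up c), (hU _).2 ⟨c, rfl⟩⟩ : X (sr i))) ⟨?_, ?_⟩)).symm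
  · intro c c' e
    have e1 : f (up c) = f (up c') := congrArg Subtype.val e
    have e2 : f (up (c - c')) = 1 := by
      rw [sub_eq_add_neg, ← up_mul, map_mul, ← up_inv, map_inv, e1, mul_inv_cancel]
    exact sub_eq_zero.1 (hinj _ e2)
  · rintro ⟨x, hx⟩
    obtain ⟨c, rfl⟩ := (hU x).1 hx
    exact ⟨c, rfl⟩

end main

end Cfsg.Agent.H769.OZ
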