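import Cfsg.Agent.H769.OZ.BalW
import Cfsg.Agent.H769.OZ.SpSt
import Cfsg.Agent.H200.VZ.Dat

/-!
# `PSp_2m(q)`: the coroots and the diagonal automorphisms (helper769, S4842)

* `tt : (Fin m → Fˣ) →* PSp m F` : the torus, `T_eq`;
* `hc j : Fˣ →* PSp m F` : the coroots, `td_sp : TD T n (Ap false m) hc`;
* `dP a c : PSp m F ≃* PSp m F` : conjugation by a diagonal similitude, `dP_apply`, `dia_dP`, `dP_n`;
* `dI j x` : the fundamental coweights, `dia_dI`, `dI_self`, `dI_ne`.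
-/

set_option autoImplicit false
set_option linter.unusedSectionVars false

namespace Cfsg.Agent.H769.OZ

open CoxeterSystem Cfsg Cfsg.Agent.ChevalleyStructure.CoxeterGeom Cfsg.Agent.Tits.Roots
open Cfsg.Agent.Tits.Core Cfsg.Agent.Tits.RootComb Cfsg.Agent.Nodes.TypeC
open Cfsg.Agent.Nodes Cfsg.Agent.Nodes.Comb Cfsg.Agent.Nodes.Reps Cfsg.Agent.Nodes.WittRoot Cfsg.Agent.Nodes.BNOf
open Cfsg.Agent.Nodes.WittRGD Cfsg.Agent.Nodes.WittAll Cfsg.Agent.Nodes.OppDec
open Cfsg.Agent.TitsThree Cfsg.Agent.TitsThree.Siegel Cfsg.Agent.TitsThree.WittFrame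
  Cfsg.Agent.TitsThree.WittWeyl Cfsg.Agent.TitsThree.FrameCN Cfsg.Agent.TitsThree.SpIdent
open Cfsg.Agent.ChevalleyStructure.SL2Hom Cfsg.Agent.H985.VZ Cfsg.Agent.H62.FrameSL
open Cfsg.Agent.ClassicalGeometry Cfsg.Agent.ClassicalGeometry.SympBasic Cfsg.Agent.H200.VZ
open Matrix

variable {F : Type*} [Field F] {m : ℕ}

/-! ### Diagonal maps -/

/-- the index of a frame vector -/
def ix (x : Fin m × Bool) : Fin m ⊕ Fin m := if x.2 then Sum.inr x.1 else Sum.inl x.1

theorem b_eq (x : Fin m × Bool) : (frame m F).b x = Pi.single (ix x) 1 := by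
  obtain ⟨k, s⟩ := x
  cases s <;> rfl

/-- maps agreeing on the frame are equal -/
theorem lin_ext {g k : (Fin m ⊕ Fin m → F) ≃ₗ[F] (Fin m ⊕ Fin m → F)}
    (h : ∀ x, g ((frame m F).b x) = k ((frame m F).b x)) : g = k := by
  apply LinearEquiv.toLinearMap_injective
  apply LinearMap.pi_ext'
  intro i
  apply LinearMap.ext_ring
  rcases i with i | i
  · exact h (i, false)
  · exact h (i, true)

/-- the diagonal map -/
def dm (u : Fin m ⊕ Fin m → Fˣ) : (Fin m ⊕ Fin m → F) ≃ₗ[F] (Fin m ⊕ Fin m → F) where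
  toFun v s := (u s : F) * v s
  invFun v s := ((u s)⁻¹ : Fˣ) * v s
  map_add' v w := by funext s; simp [mul_add]
  map_smul' c v := by funext s; simp [mul_left_comm]
  left_inv v := by funext s; simp
  right_inv v := by funext s; simp

theorem dm_apply (u : Fin m ⊕ Fin m → Fˣ) (v : Fin m ⊕ Fin m → F) (s : Fin m ⊕ Fin m) : dm u v s = (u s : F) * v s := rfl

theorem dm_mul (u u' : Fin m ⊕ Fin m → Fˣ) : (dm (u * u') : (Fin m ⊕ Fin m → F) ≃ₗ[F] _) = dm u * dm u' := by
  ext1 v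
  funext s
  change _ = (u s : F) * ((u' s : F) * v s)
  rw [dm_apply, Pi.mul_apply, Units.val_mul, mul_assoc]

theorem dm_one : (dm 1 : (Fin m ⊕ Fin m → F) ≃ₗ[F] _) = 1 := by
  ext1 v
  funext s
  change _ = v s
  rw [dm_apply, Pi.one_apply, Units.val_one, one_mul]

/-- the homomorphism -/
def dmH : (Fin m ⊕ Fin m → Fˣ) →* ((Fin m ⊕ Fin m → F) ≃ₗ[F] (Fin m ⊕ Fin m → F)) where
  toFun := dm
  map_one' := dm_one
  map_mul' := dm_mul

theorem dm_inv (u : Fin m ⊕ Fin m → Fˣ) : (dm u)⁻¹ = (dm u⁻¹ : (Fin m ⊕ Fin m → F) ≃ₗ[F] _) := (map_inv dmH u).symm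

theorem dm_comm (u u' : Fin m ⊕ Fin m → Fˣ) : dm u * dm u' = (dm u' * dm u : (Fin m ⊕ Fin m → F) ≃ₗ[F] _) := by
  rw [← dm_mul, mul_comm, dm_mul]

theorem dm_b (u : Fin m ⊕ Fin m → Fˣ) (x : Fin m × Bool) :
    dm u ((frame m F).b x) = (u (ix x) : F) • (frame m F).b x := by
  funext s
  rw [dm_apply, b_eq, Pi.smul_apply, smul_eq_mul]
  by_cases h : s = ix x
  · rw [h]
  · rw [Pi.single_eq_of_ne h, mul_zero, mul_zero]

/-- the weights of a similitude -/
def w2 (a : Fin m → Fˣ) (c : Fˣ) : Fin m ⊕ Fin m → Fˣ := Sum.elim (fun k => c * (a k)⁻¹) a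

/-- the weights on the frame -/
def wf (a : Fin m → Fˣ) (c : Fˣ) (x : Fin m × Bool) : Fˣ := if x.2 then a x.1 else c * (a x.1)⁻¹

theorem w2_ix (a : Fin m → Fˣ) (c : Fˣ) (x : Fin m × Bool) : w2 a c (ix x) = wf a c x := by
  obtain ⟨k, s⟩ := x
  cases s <;> rfl

theorem w2_mul (a a' : Fin m → Fˣ) (c c' : Fˣ) : w2 (a * a') (c * c') = w2 a c * w2 a' c' := by
  funext s
  rcases s with k | k
  · simp only [w2, Sum.elim_inl, Pi.mul_apply]
    rw [_root_.mul_inv, mul_mul_mul_comm]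
  · rfl

theorem w2_one : w2 (1 : Fin m → Fˣ) 1 = 1 := by
  funext s
  rcases s with k | k
  · simp [w2]
  · rfl

theorem w2_inv (a : Fin m → Fˣ) (c : Fˣ) : (w2 a c)⁻¹ = w2 a⁻¹ c⁻¹ := by
  rw [inv_eq_iff_mul_eq_one, ← w2_mul, mul_inv_cancel, mul_inv_cancel, w2_one]

theorem wf_ng (a : Fin m → Fˣ) (c : Fˣ) (x : Fin m × Bool) : wf a c (ng x) = c * (wf a c x)⁻¹ := by
  obtain ⟨k, s⟩ := x
  cases s
  · simp [wf, ng]
  · simp [wf, ng]

theorem h_dm (a : Fin m → Fˣ) (c : Fˣ) (v w : Fin m ⊕ Fin m → F) :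
    (form m F).h (dm (w2 a c) v) (dm (w2 a c) w) = c * (form m F).h v w := by
  rw [form_h, form_h, sympForm_eq_sum, sympForm_eq_sum, Finset.mul_sum]
  refine Finset.sum_congr rfl fun k _ => ?_
  simp only [dm_apply, w2, Sum.elim_inl, Sum.elim_inr, Units.val_mul, Units.val_inv_eq_inv_val]
  have := (a k).ne_zero
  field_simp

/-- conjugation by a similitude preserves the isometries -/
theorem conj_mem (a : Fin m → Fˣ) (c : Fˣ) {g : (Fin m ⊕ Fin m → F) ≃ₗ[F] (Fin m ⊕ Fin m → F)}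
    (hg : g ∈ isos (form m F)) : dm (w2 a c) * g * (dm (w2 a c))⁻¹ ∈ isos (form m F) := by
  intro v w
  change (form m F).h (dm (w2 a c) (g ((dm (w2 a c))⁻¹ v))) (dm (w2 a c) (g ((dm (w2 a c))⁻¹ w))) = _
  rw [h_dm, hg, dm_inv, w2_inv, h_dm, ← mul_assoc, ← Units.val_mul, mul_inv_cancel, Units.val_one, one_mul]

/-- the diagonal isometries -/
def da : (Fin m → Fˣ) →* isos (form m F) where
  toFun a := ⟨dm (w2 a 1), fun v w => by
    have := h_dm a 1 v w
    rwa [Units.val_one, one_mul] at this⟩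
  map_one' := Subtype.ext (by change dm (w2 1 1) = 1; rw [w2_one, dm_one])
  map_mul' a a' := Subtype.ext (by
    change dm (w2 (a * a') 1) = dm (w2 a 1) * dm (w2 a' 1)
    rw [← dm_mul, ← w2_mul, mul_one])

theorem coe_da (a : Fin m → Fˣ) : ((da a : isos (form m F)) : (Fin m ⊕ Fin m → F) ≃ₗ[F] _) = dm (w2 a 1) := rfl

/-- the torus -/
noncomputable def tt : (Fin m → Fˣ) →* PSp m F := toPSp.comp da

theorem tt_apply (a : Fin m → Fˣ) : (tt a : PSp m F) = toPSp (da a) := rfl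

theorem tt_mem (a : Fin m → Fˣ) : (tt a : PSp m F) ∈ WittModel.T (KInstSp.model m F) := by
  refine Subgroup.mem_map_of_mem _ (Subgroup.mem_subgroupOf.2
    ⟨(da a).2, fun x => ⟨(w2 a 1 (ix x) : Fˣ), Units.ne_zero _, ?_⟩⟩)
  exact dm_b _ x

theorem T_eq : WittModel.T (KInstSp.model m F) = (tt (m := m) (F := F)).range := by
  apply le_antisymm
  · rintro _ ⟨⟨g, hg⟩, hg', rfl⟩
    obtain ⟨-, hm⟩ := Subgroup.mem_subgroupOf.1 hg'
    change Mono (frame m F) g id at hm
    choose l hl0 hl using hm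
    refine ⟨fun k => Units.mk0 (l (k, true)) (hl0 _), ?_⟩
    change toPSp _ = toPSp _
    congr 1
    apply Subtype.ext
    change dm _ = g
    apply lin_ext
    intro x
    rw [dm_b, w2_ix, hl]
    congr 1
    obtain ⟨k, s⟩ := x
    cases s
    · have h1 := hg ((frame m F).b (k, true)) ((frame m F).b (k, false))
      change (form m F).h (g _) (g _) = _ at h1
      rw [hl, hl] at h1
      simp only [id, (form m F).smul_left, (form m F).smul_right, form_σ, Cfsg.Agent.H62.FrameSL.ht, mul_one] at h1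
      simp only [wf, Bool.false_eq_true, if_false, one_mul, Units.val_inv_eq_inv_val, Units.val_mk0]
      exact (eq_inv_of_mul_eq_one_right h1).symm
    · rfl
  · rintro _ ⟨a, rfl⟩
    exact tt_mem a

/-! ### The Weyl elements -/

/-- the action of `n i` on the weights -/
def sA (i : Fin m) (a : Fin m → Fˣ) (c : Fˣ) (k : Fin m) : Fˣ := wf a c (sg i (k, true))

theorem wf_sA (i : Fin m) (a : Fin m → Fˣ) (c : Fˣ) (x : Fin m × Bool) : wf (sA i a c) c x = wf a c (sg i x) := by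
  obtain ⟨k, s⟩ := x
  cases s
  · have h1 : ((k, false) : Fin m × Bool) = ng (k, true) := rfl
    rw [h1, wf_ng, sg_ng, wf_ng]
    rfl
  · rfl

theorem dm_nn (i : Fin m) (a : Fin m → Fˣ) (c : Fˣ) :
    (WittRGD.nn (frame m F) (adm 1) i)⁻¹ * dm (w2 a c) * WittRGD.nn (frame m F) (adm 1) i = dm (w2 (sA i a c) c) := by
  rw [mul_assoc, inv_mul_eq_iff_eq_mul]
  apply lin_ext
  intro x
  obtain ⟨l, -, hl⟩ := mono_nn (Fr := frame m F) (p0 := adm 1) one_ne_zero i x
  change dm (w2 a c) (WittRGD.nn (frame m F) (adm 1) i _) = WittRGD.nn (frame m F) (adm 1) i (dm _ _)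
  rw [dm_b, w2_ix, wf_sA, map_smul, hl, map_smul, dm_b, w2_ix, smul_comm]

theorem nn_dm (i : Fin m) (a : Fin m → Fˣ) (c : Fˣ) : (WittRGD.nn (frame m F) (adm 1) i)⁻¹ *
    (dm (w2 a c) * WittRGD.nn (frame m F) (adm 1) i * (dm (w2 a c))⁻¹) = dm (w2 (sA i a c * a⁻¹) 1) := by
  rw [← mul_assoc, ← mul_assoc, dm_nn, dm_inv, ← dm_mul, w2_inv, ← w2_mul, mul_inv_cancel]

section nodes

variable {p : ℕ} (hA : AmbT (frame m F) p (KInstSp.model m F).I)

/-- the Weyl elements of the root group datum -/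
noncomputable abbrev nS (i : Fin m) : PSp m F :=
  (KInstSp.model m F).φ ⟨WittRGD.nn (frame m F) (adm 1) i, WittAll.nn_mem hA (adm 1) i⟩

theorem nS_eq (i : Fin m) : nS hA i = toPSp ⟨WittRGD.nn (frame m F) (adm 1) i, WittAll.nn_mem hA (adm 1) i⟩ := rfl

theorem nS_conj (i : Fin m) (a : Fin m → Fˣ) : (nS hA i)⁻¹ * tt a * nS hA i = tt (sA i a 1) := by
  have key : ∀ g : isos (form m F), g.1 = WittRGD.nn (frame m F) (adm 1) i →
      (toPSp g)⁻¹ * toPSp (da a) * toPSp g = (toPSp (da (sA i a 1)) : PSp m F) := by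
    intro g hg
    rw [← map_inv, ← map_mul, ← map_mul]
    congr 1
    apply Subtype.ext
    change g.1⁻¹ * dm (w2 a 1) * g.1 = _
    rw [hg]
    exact dm_nn i a 1
  exact key _ rfl

end nodes

/-! ### The coroots -/

/-- the exponents of the coroots -/
def Ec (j k : ℕ) : ℤ := if k = j then 1 else if j + 1 = k then -1 else 0

/-- the coroots as functions -/
def coH (j : Fin m) : Fˣ →* (Fin m → Fˣ) where
  toFun x k := x ^ Ec j k
  map_one' := by
    funext k
    simp
  map_mul' x y := by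
    funext k
    exact mul_zpow x y _

theorem coH_apply (j : Fin m) (x : Fˣ) (k : Fin m) : coH j x k = x ^ Ec j k := rfl

/-- the coroots in `PSp` -/
noncomputable def hc (j : Fin m) : Fˣ →* PSp m F := tt.comp (coH j)

theorem hc_apply (j : Fin m) (x : Fˣ) : (hc j x : PSp m F) = tt (coH j x) := rfl

theorem sA_up {i : Fin m} (hi : (i : ℕ) + 1 < m) (a : Fin m → Fˣ) (c : Fˣ) (k : Fin m) :
    sA i a c k = if (k : ℕ) = i then a ⟨i + 1, hi⟩ else if (k : ℕ) = i + 1 then a i else a k := by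
  unfold sA sg
  rw [dif_pos hi]
  by_cases h1 : k = i
  · subst h1
    simp [wf]
  · have h1' : (k : ℕ) ≠ i := fun h => h1 (Fin.ext h)
    by_cases h2 : (k : ℕ) = i + 1
    · have h2' : k = ⟨i + 1, hi⟩ := Fin.ext h2
      rw [if_neg h1, if_neg h1', if_pos h2, if_pos h2']
      rfl
    · have h2' : k ≠ ⟨i + 1, hi⟩ := fun h => h2 (congrArg Fin.val h)
      rw [if_neg h1, if_neg h1', if_neg h2, if_neg h2']
      rfl

theorem sA_last {i : Fin m} (hi : ¬ (i : ℕ) + 1 < m) (a : Fin m → Fˣ) (c : Fˣ) (k : Fin m) :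
    sA i a c k = if (k : ℕ) = i then c * (a i)⁻¹ else a k := by
  unfold sA sg
  rw [dif_neg hi]
  by_cases h1 : k = i
  · subst h1
    simp [wf]
  · have h1' : (k : ℕ) ≠ i := fun h => h1 (Fin.ext h)
    rw [if_neg h1, if_neg h1']
    rfl

theorem Ap_eq (j i : Fin m) : Ap false m j i = if (i : ℕ) = j then 2 else if (j : ℕ) + 1 = i then
    (if (i : ℕ) + 1 = m then -2 else -1) else if (i : ℕ) + 1 = j then -1 else 0 := by
  unfold Ap
  simp [Fin.ext_iff]

theorem sA_co (i j : Fin m) (x : Fˣ) : sA i (coH j x) 1 = coH j x * (coH i x) ^ (-Ap false m j i) := by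
  funext k
  rw [Pi.mul_apply, Pi.pow_apply, coH_apply, coH_apply, ← _root_.zpow_mul, ← _root_.zpow_add, Ap_eq]
  have hk := k.2
  have hj := j.2
  have hi' := i.2
  by_cases hi : (i : ℕ) + 1 < m
  · rw [sA_up hi]
    simp only [coH_apply]
    rw [← apply_ite (fun z : ℤ => x ^ z), ← apply_ite (fun z : ℤ => x ^ z)]
    congr 1
    unfold Ec
    split_ifs <;> omega
  · rw [sA_last hi]
    simp only [coH_apply, one_mul]
    rw [← _root_.zpow_neg, ← apply_ite (fun z : ℤ => x ^ z)]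
    congr 1
    unfold Ec
    split_ifs <;> omega

theorem single_mem (d : ℕ) : ∀ (k : Fin m) (x : Fˣ), (k : ℕ) + d + 1 = m →
    Pi.mulSingle k x ∈ Subgroup.closure {a : Fin m → Fˣ | ∃ j x, a = coH j x} := by
  induction d with
  | zero =>
    intro k x hk
    refine Subgroup.subset_closure ⟨k, x, ?_⟩
    funext l
    have hl := l.2
    rw [coH_apply]
    by_cases h : l = k
    · subst h
      simp [Ec]
    · have h' : (l : ℕ) ≠ k := fun e => h (Fin.ext e)
      have h2 : ¬ ((k : ℕ) + 1 = l) := by omega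
      simp [Ec, Pi.mulSingle_eq_of_ne h, h', h2]
  | succ d ih =>
    intro k x hk
    have hk1 : (k : ℕ) + 1 < m := by omega
    have h1 := ih ⟨k + 1, hk1⟩ x (by simp only; omega)
    have h2 : Pi.mulSingle k x = coH k x * Pi.mulSingle (⟨k + 1, hk1⟩ : Fin m) x := by
      funext l
      rw [Pi.mul_apply, coH_apply]
      by_cases h : l = k
      · subst h
        have h3 : l ≠ ⟨l + 1, hk1⟩ := fun e => by have := congrArg Fin.val e; simp at this
        simp [Ec, Pi.mulSingle_eq_of_ne h3]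
      · have h' : (l : ℕ) ≠ k := fun e => h (Fin.ext e)
        by_cases h4 : l = ⟨k + 1, hk1⟩
        · subst h4
          rw [Pi.mulSingle_eq_of_ne h, Pi.mulSingle_eq_same]
          simp [Ec]
        · have h5 : ¬ ((k : ℕ) + 1 = l) := fun e => h4 (Fin.ext e.symm)
          simp [Ec, Pi.mulSingle_eq_of_ne h, Pi.mulSingle_eq_of_ne h4, h', h5]
    rw [h2]
    exact mul_mem (Subgroup.subset_closure ⟨k, x, rfl⟩) h1

theorem mem_closure_co (a : Fin m → Fˣ) : a ∈ Subgroup.closure {a : Fin m → Fˣ | ∃ j x, a = coH j x} := by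
  rw [← Finset.univ_prod_mulSingle a]
  refine Subgroup.prod_mem _ fun k _ => single_mem (m - k - 1) k _ ?_
  have := k.2
  omega

/-- **The torus data of `PSp_2m`.** -/
theorem td_sp {p : ℕ} (hA : AmbT (frame m F) p (KInstSp.model m F).I) :
    TD (WittModel.T (KInstSp.model m F)) (fun i => nS hA i) (Ap false m) (hc (m := m) (F := F)) where
  mem j x := tt_mem _
  conj i j x := by
    rw [hc_apply, nS_conj, sA_co, map_mul, map_zpow]
    rfl
  gen := by
    rw [T_eq]
    rintro _ ⟨a, rfl⟩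
    have h1 : Subgroup.closure {a : Fin m → Fˣ | ∃ j x, a = coH j x} ≤
        (Subgroup.closure {y : PSp m F | ∃ j x, y = hc j x}).comap tt := by
      rw [Subgroup.closure_le]
      rintro _ ⟨j, x, rfl⟩
      exact Subgroup.subset_closure ⟨j, x, rfl⟩
    exact h1 (mem_closure_co a)

/-! ### Diagonal automorphisms from the simple root groups -/

section dia

variable {I W Y : Type*} [Fintype I] [DecidableEq I] [Group W] [Group Y] {M : CoxeterMatrix I}
  {cs : CoxeterSystem M W} {A : I → I → ℤ} {h : IsCartan M A} {p : ℕ} {T : Subgroup Y} {n : I → Y}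
  {X : (I → ℤ) → Subgroup Y}

theorem rp_dia {hN : NSys M T n} {d : Y ≃* Y} (hT : ∀ t ∈ T, d t = t) (hn : ∀ i, (n i)⁻¹ * d (n i) ∈ T) {w : W} {g : Y}
    (hg : Rp cs hN w g) : g⁻¹ * d g ∈ T := by
  obtain ⟨ω, rfl⟩ := cs.wordProd_surjective w
  induction ω generalizing g with
  | nil =>
    rw [wordProd_nil] at hg
    rw [hT g hg.mem_of_one, inv_mul_cancel]
    exact one_mem _
  | cons i ω ih =>
    rw [wordProd_cons] at hg
    have h1 : Rp cs hN (cs.wordProd ω) ((n i)⁻¹ * g) := by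
      have := (rp_simple cs hN i).inv.mul hg
      rwa [inv_mul_cancel_left] at this
    have h2 := ih h1
    have h3 : g⁻¹ * d g = ((n i)⁻¹ * g)⁻¹ * ((n i)⁻¹ * d (n i)) * ((n i)⁻¹ * g) * (((n i)⁻¹ * g)⁻¹ * d ((n i)⁻¹ * g)) := by
      rw [map_mul, map_inv]
      group
    rw [h3]
    refine mul_mem ?_ h2
    have := (Subgroup.mem_normalizer_iff.1 (h1.inv.mem_normalizer) ((n i)⁻¹ * d (n i))).1 (hn i)
    rwa [inv_inv] at this

/-- it suffices to check the simple root groups -/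
theorem dia_of (R : RGD cs h p T n X) {d : Y ≃* Y} (hT : ∀ t ∈ T, d t = t) (hX : ∀ i, ∀ u ∈ X (sr i), d u ∈ X (sr i))
    (hn : ∀ i, (n i)⁻¹ * d (n i) ∈ T) : Dia cs h T n X d where
  tor := hT
  nn := hn
  root := by
    rintro _ ⟨w, i, rfl⟩ u hu
    obtain ⟨g, hg⟩ := exists_rp cs R.nsys w
    have h1 : g⁻¹ * u * g ∈ X (sr i) := by
      have := R.conj_mem' hg (⟨w, i, rfl⟩ : IsRoot cs h (rep cs h w (sr i))) hu
      rwa [rep_inv_apply] at this
    have h2 := hX i _ h1
    have h3 : Rp cs R.nsys w (d g) := by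
      have := hg.mul_mem_right (rp_dia hT hn hg)
      rwa [mul_inv_cancel_left] at this
    have h4 := R.conj_mem h3 (isRoot_sr cs h i) h2
    rw [map_mul, map_mul, map_inv] at h4
    have h5 : d g * ((d g)⁻¹ * d u * d g) * (d g)⁻¹ = d u := by group
    rwa [h5] at h4

end dia

/-! ### Conjugation by diagonal similitudes -/

/-- on the isometries -/
def cI (a : Fin m → Fˣ) (c : Fˣ) : isos (form m F) →* isos (form m F) where
  toFun g := ⟨dm (w2 a c) * g.1 * (dm (w2 a c))⁻¹, conj_mem a c g.2⟩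
  map_one' := Subtype.ext (by change dm (w2 a c) * 1 * (dm (w2 a c))⁻¹ = 1; rw [mul_one, mul_inv_cancel])
  map_mul' g k := Subtype.ext (by
    change dm (w2 a c) * (g.1 * k.1) * (dm (w2 a c))⁻¹ =
      dm (w2 a c) * g.1 * (dm (w2 a c))⁻¹ * (dm (w2 a c) * k.1 * (dm (w2 a c))⁻¹)
    group)

theorem coe_cI (a : Fin m → Fˣ) (c : Fˣ) (g : isos (form m F)) :
    (cI a c g).1 = dm (w2 a c) * g.1 * (dm (w2 a c))⁻¹ := rfl

theorem cI_ker (a : Fin m → Fˣ) (c : Fˣ) : (toPSp (m := m) (F := F)).ker ≤ (toPSp.comp (cI a c)).ker := by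
  intro g hg
  obtain ⟨x, -, hx⟩ := exists_smul_of_toPSp_eq_one (MonoidHom.mem_ker.1 hg)
  rw [MonoidHom.mem_ker, MonoidHom.comp_apply]
  have h1 : cI a c g = g := by
    apply Subtype.ext
    rw [coe_cI, mul_inv_eq_iff_eq_mul]
    ext1 v
    change dm (w2 a c) (g.1 v) = g.1 (dm (w2 a c) v)
    rw [hx, hx, map_smul]
  rw [h1]
  exact MonoidHom.mem_ker.1 hg

/-- on `PSp` -/
noncomputable def lP (a : Fin m → Fˣ) (c : Fˣ) : PSp m F →* PSp m F :=
  (toPSp (m := m) (F := F)).liftOfSurjective toPSp_surjective ⟨toPSp.comp (cI a c), cI_ker a c⟩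

theorem lP_apply (a : Fin m → Fˣ) (c : Fˣ) (g : isos (form m F)) : lP a c (toPSp g) = toPSp (cI a c g) :=
  MonoidHom.liftOfRightInverse_comp_apply _ _ _ _ g

theorem lP_lP (a : Fin m → Fˣ) (c : Fˣ) : (lP a⁻¹ c⁻¹).comp (lP a c) = MonoidHom.id (PSp m F) := by
  refine MonoidHom.ext fun y => ?_
  obtain ⟨g, rfl⟩ := toPSp_surjective y
  rw [MonoidHom.comp_apply, lP_apply, lP_apply, MonoidHom.id_apply]
  congr 1
  apply Subtype.ext
  rw [coe_cI, coe_cI, ← w2_inv, ← dm_inv]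
  group

/-- **the automorphism** -/
noncomputable def dP (a : Fin m → Fˣ) (c : Fˣ) : PSp m F ≃* PSp m F :=
  MonoidHom.toMulEquiv (lP a c) (lP a⁻¹ c⁻¹) (lP_lP a c) (by
    have := lP_lP (F := F) a⁻¹ c⁻¹
    rwa [inv_inv, inv_inv] at this)

theorem dP_apply (a : Fin m → Fˣ) (c : Fˣ) (g : isos (form m F)) : dP a c (toPSp g) = toPSp (cI a c g) := lP_apply a c g

theorem dP_T (a : Fin m → Fˣ) (c : Fˣ) {t : PSp m F} (ht : t ∈ WittModel.T (KInstSp.model m F)) : dP a c t = t := by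
  rw [T_eq] at ht
  obtain ⟨b, rfl⟩ := ht
  rw [tt_apply, dP_apply]
  congr 1
  apply Subtype.ext
  rw [coe_cI, coe_da, dm_comm, mul_inv_cancel_right]

section auto

variable {p : ℕ} (hA : AmbT (frame m F) p (KInstSp.model m F).I)

theorem dP_n (a : Fin m → Fˣ) (c : Fˣ) (i : Fin m) : (nS hA i)⁻¹ * dP a c (nS hA i) = tt (sA i a c * a⁻¹) := by
  have key : ∀ g : isos (form m F), g.1 = WittRGD.nn (frame m F) (adm 1) i →
      (toPSp g)⁻¹ * dP a c (toPSp g) = (toPSp (da (sA i a c * a⁻¹)) : PSp m F) := by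
    intro g hg
    rw [dP_apply, ← map_inv, ← map_mul]
    congr 1
    apply Subtype.ext
    change g.1⁻¹ * (dm (w2 a c) * g.1 * (dm (w2 a c))⁻¹) = _
    rw [hg]
    exact nn_dm i a c
  exact key _ rfl

theorem h_e (v : Fin m ⊕ Fin m → F) (i : Fin m) : (form m F).h v ((frame m F).b (i, true)) = -v (Sum.inl i) := by
  rw [form_h, sympForm_swap]
  change -sympForm m F (Pi.single (Sum.inr i) 1) v = _
  rw [sympForm_single_inr_left]

theorem h_f (v : Fin m ⊕ Fin m → F) (i : Fin m) : (form m F).h v ((frame m F).b (i, false)) = v (Sum.inr i) := by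
  rw [form_h, sympForm_swap]
  change -sympForm m F (Pi.single (Sum.inl i) 1) v = _
  rw [sympForm_single_inl_left, _root_.neg_neg]

theorem phiS_pt {i j : Fin m} (hij : i ≠ j) (t : F) (v : Fin m ⊕ Fin m → F) (s : Fin m ⊕ Fin m) :
    phiS (frame m F) hij (up t) v s = v s - t * v (Sum.inl i) * (if s = Sum.inl j then 1 else 0) +
      t * v (Sum.inr j) * (if s = Sum.inr i then 1 else 0) := by
  rw [phiS_up, H62.FrameSL.X_apply _ hij, h_e, h_f]
  have e1 : (frame m F).b (j, false) s = if s = Sum.inl j then 1 else 0 := by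
    change (Pi.single (Sum.inl j) 1 : Fin m ⊕ Fin m → F) s = _
    rw [Pi.single_apply]
  have e2 : (frame m F).b (i, true) s = if s = Sum.inr i then 1 else 0 := by
    change (Pi.single (Sum.inr i) 1 : Fin m ⊕ Fin m → F) s = _
    rw [Pi.single_apply]
  simp only [Pi.add_apply, Pi.sub_apply, Pi.smul_apply, smul_eq_mul, e1, e2, form_σ, form_ε]
  congr 2
  rw [inv_neg, inv_one]
  ring

theorem phiL_pt (i : Fin m) (t : F) (v : Fin m ⊕ Fin m → F) (s : Fin m ⊕ Fin m) :
    phiL (frame m F) i (up t) v s = v s + t * v (Sum.inl i) * (if s = Sum.inr i then 1 else 0) := by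
  rw [phiL_up, H62.FrameSL.Z_apply, h_e]
  have e2 : (frame m F).b (i, true) s = if s = Sum.inr i then 1 else 0 := by
    change (Pi.single (Sum.inr i) 1 : Fin m ⊕ Fin m → F) s = _
    rw [Pi.single_apply]
  simp only [Pi.add_apply, Pi.smul_apply, smul_eq_mul, e2]
  ring

theorem conj_phiS (a : Fin m → Fˣ) (c : Fˣ) {i j : Fin m} (hij : i ≠ j) (t : F) :
    dm (w2 a c) * phiS (frame m F) hij (up t) * (dm (w2 a c))⁻¹ = phiS (frame m F) hij (up (a i * t * (a j : F)⁻¹)) := by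
  rw [mul_inv_eq_iff_eq_mul]
  ext1 v
  funext s
  change dm (w2 a c) (phiS (frame m F) hij (up t) v) s = phiS (frame m F) hij (up _) (dm _ v) s
  rw [dm_apply, phiS_pt, phiS_pt, dm_apply, dm_apply, dm_apply]
  have hi := (a i).ne_zero
  have hj := (a j).ne_zero
  by_cases h1 : s = Sum.inl j
  · subst h1
    simp only [if_true, reduceCtorEq, if_false, mul_one, mul_zero, add_zero, w2, Sum.elim_inl, Units.val_mul,
      Units.val_inv_eq_inv_val]
    field_simp
  · by_cases h2 : s = Sum.inr i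
    · subst h2
      simp only [if_true, reduceCtorEq, if_false, mul_one, mul_zero, sub_zero, w2, Sum.elim_inr]
      field_simp
    · simp only [if_neg h1, if_neg h2, mul_zero, sub_zero, add_zero]

theorem conj_phiL (a : Fin m → Fˣ) (c : Fˣ) (i : Fin m) (t : F) :
    dm (w2 a c) * phiL (frame m F) i (up t) * (dm (w2 a c))⁻¹ =
      phiL (frame m F) i (up (a i * t * a i * (c : F)⁻¹)) := by
  rw [mul_inv_eq_iff_eq_mul]
  ext1 v
  funext s
  change dm (w2 a c) (phiL (frame m F) i (up t) v) s = phiL (frame m F) i (up _) (dm _ v) s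
  rw [dm_apply, phiL_pt, phiL_pt, dm_apply, dm_apply]
  have hi := (a i).ne_zero
  have hc := c.ne_zero
  by_cases h2 : s = Sum.inr i
  · subst h2
    simp only [if_true, mul_one, w2, Sum.elim_inr, Sum.elim_inl, Units.val_mul, Units.val_inv_eq_inv_val]
    field_simp
  · simp only [if_neg h2, mul_zero, add_zero]

theorem dP_X (a : Fin m → Fˣ) (c : Fˣ) (i : Fin m) {u : PSp m F} (hu : u ∈ WittModel.X (KInstSp.model m F) (sr i)) :
    dP a c u ∈ WittModel.X (KInstSp.model m F) (sr i) := by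
  obtain ⟨g, hg, hg2, rfl⟩ := (WittModel.mem_X _).1 hu
  have key : ∀ g : isos (form m F), g.1 ∈ WittRoot.rg (frame m F) (sr i) →
      ∃ k : isos (form m F), k.1 ∈ WittRoot.rg (frame m F) (sr i) ∧ dP a c (toPSp g) = toPSp k := by
    intro g hg
    refine ⟨cI a c g, ?_, dP_apply a c g⟩
    rw [coe_cI]
    by_cases hi : (i : ℕ) + 1 < m
    · have hij : (i : ℕ) + 1 = (⟨i + 1, hi⟩ : Fin m) := rfl
      obtain ⟨t, ht⟩ := (phiS_rg hij _).1 hg
      rw [ht, conj_phiS]
      exact (phiS_rg hij _).2 ⟨_, rfl⟩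
    · obtain ⟨t, ht⟩ := (phiL_rg hi _).1 hg
      rw [ht, conj_phiL]
      exact (phiL_rg hi _).2 ⟨_, rfl⟩
  obtain ⟨k, hk, hk2⟩ := key ⟨g, hg⟩ hg2
  exact (WittModel.mem_X _).2 ⟨k.1, k.2, hk, hk2⟩

variable {W : Type*} [Group W] (cs : CoxeterSystem (CoxeterMatrix.B m) W)

theorem dia_dP [Finite F] [Fact p.Prime] [CharP F p] (a : Fin m → Fˣ) (c : Fˣ) :
    Dia cs (isCartan m) (WittModel.T (KInstSp.model m F)) (fun i => nS hA i) (WittModel.X (KInstSp.model m F)) (dP a c) :=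
  dia_of (rgdC_model (KInstSp.model m F) hA (p0 := adm 1) one_ne_zero cs) (fun _ ht => dP_T a c ht)
    (fun i _ hu => dP_X a c i hu) fun i => by
      have h1 := dP_n hA a c i
      exact h1 ▸ tt_mem _

/-! ### The fundamental coweights -/

/-- the weights of the fundamental coweight -/
def cw (j : Fin m) (x : Fˣ) (k : Fin m) : Fˣ := if (k : ℕ) ≤ j then x⁻¹ else 1

/-- its multiplier -/
def cm (j : Fin m) (x : Fˣ) : Fˣ := if (j : ℕ) + 1 < m then 1 else x⁻¹

theorem sA_cw (i j : Fin m) (x : Fˣ) : sA i (cw j x) (cm j x) * (cw j x)⁻¹ = if i = j then coH j x else 1 := by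
  funext k
  rw [Pi.mul_apply, Pi.inv_apply]
  have hk := k.2
  have hj := j.2
  have hi' := i.2
  by_cases hi : (i : ℕ) + 1 < m
  · rw [sA_up hi]
    by_cases e : i = j
    · subst e
      rw [if_pos rfl, coH_apply]
      unfold cw Ec
      by_cases h1 : (k : ℕ) = i
      · simp [h1]
      · by_cases h2 : (k : ℕ) = i + 1
        · simp [h2]
        · have h3 : ¬ ((i : ℕ) + 1 = k) := fun h => h2 h.symm
          simp [h1, h2, h3]
    · have e' : (i : ℕ) ≠ j := fun h => e (Fin.ext h)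
      rw [if_neg e, Pi.one_apply]
      unfold cw
      by_cases h1 : (k : ℕ) = i
      · by_cases h4 : (i : ℕ) < j
        · have h5 : (i : ℕ) + 1 ≤ j := h4
          have h6 : (i : ℕ) ≤ j := h4.le
          simp [h1, h5, h6]
        · have h5 : ¬ ((i : ℕ) + 1 ≤ j) := by omega
          have h6 : ¬ ((i : ℕ) ≤ j) := by omega
          simp [h1, h5, h6]
      · by_cases h2 : (k : ℕ) = i + 1
        · by_cases h4 : (i : ℕ) < j
          · have h5 : (i : ℕ) + 1 ≤ j := h4
            have h6 : (i : ℕ) ≤ j := h4.le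
            simp [h2, h5, h6]
          · have h5 : ¬ ((i : ℕ) + 1 ≤ j) := by omega
            have h6 : ¬ ((i : ℕ) ≤ j) := by omega
            simp [h2, h5, h6]
        · simp [h1, h2]
  · rw [sA_last hi]
    have hle : (j : ℕ) ≤ i := by omega
    by_cases e : i = j
    · subst e
      rw [if_pos rfl, coH_apply]
      unfold cw Ec cm
      by_cases h1 : (k : ℕ) = i
      · simp [h1, hi]
      · have h3 : ¬ ((i : ℕ) + 1 = k) := by omega
        simp [h1, h3]
    · have e' : (i : ℕ) ≠ j := fun h => e (Fin.ext h)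
      have h7 : (j : ℕ) + 1 < m := by omega
      have h8 : ¬ ((i : ℕ) ≤ j) := by omega
      rw [if_neg e, Pi.one_apply]
      unfold cw cm
      by_cases h1 : (k : ℕ) = i
      · simp [h1, h7, h8]
      · simp [h1]

/-- the fundamental coweights -/
noncomputable def dI (j : Fin m) (x : Fˣ) : PSp m F ≃* PSp m F := dP (cw j x) (cm j x)

theorem dia_dI [Finite F] [Fact p.Prime] [CharP F p] (j : Fin m) (x : Fˣ) :
    Dia cs (isCartan m) (WittModel.T (KInstSp.model m F)) (fun i => nS hA i) (WittModel.X (KInstSp.model m F)) (dI j x) :=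
  dia_dP hA cs _ _

theorem dI_self (j : Fin m) (x : Fˣ) : (nS hA j)⁻¹ * dI j x (nS hA j) = hc j x := by
  rw [dI, dP_n, sA_cw, if_pos rfl]
  rfl

theorem dI_ne {i j : Fin m} (hij : i ≠ j) (x : Fˣ) : dI j x (nS hA i) = nS hA i := by
  have h1 := dP_n hA (cw j x) (cm j x) i
  rw [sA_cw, if_neg hij, map_one, inv_mul_eq_one] at h1
  exact h1.symm

/-- **`HD` from the conjugacy of `t` and `ŝ t ŝ⁻¹` in `L_J`.** -/
theorem hd_sp [Finite F] [Fact p.Prime] [CharP F p] {J : Set (Fin m)} {t : PSp m F}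
    (h : ∀ (j : Fin m) (x : Fˣ), ∃ a ∈ Bruhat.LJ cs (isCartan m) (WittModel.T (KInstSp.model m F))
      (WittModel.X (KInstSp.model m F)) J, dI j x t = a * t * a⁻¹) :
    HD cs (isCartan m) (WittModel.T (KInstSp.model m F)) (fun i => nS hA i) (WittModel.X (KInstSp.model m F))
      (hc (m := m) (F := F)) J t := fun j x =>
  ⟨dI j x, dia_dI hA cs j x, dI_self hA j x, fun _ hi => dI_ne hA hi x, h j x⟩

end auto

end Cfsg.Agent.H769.OZ
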