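import Cfsg.Agent.H410.OZ.SpE
import Cfsg.Agent.H769.OZ.SpTD

/-!
# `PSp_2m(q)`, `m = 3, 4`: elliptic elements whose classes are fixed by the diagonal automorphisms (helper769, S4842)

* `exists_two_P` : helper410's `exists_two` with a further property of all elements `gl z * D`;
* `hd_last`, `hd_pen` : `HD` for the elements of `H410.OZ.SpE`;
* `psp_last_HD`, `psp_pen_HD`.
-/

set_option autoImplicit false
set_option linter.unusedSectionVars false

namespace Cfsg.Agent.H769.OZ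

open CoxeterSystem Cfsg Cfsg.Agent.ChevalleyStructure.CoxeterGeom Cfsg.Agent.Tits.Roots Cfsg.Agent.Nodes.TypeC
open Cfsg.Agent.Nodes Cfsg.Agent.Nodes.Comb Cfsg.Agent.Nodes.Reps Cfsg.Agent.Nodes.WittRoot Cfsg.Agent.Nodes.BNOf
open Cfsg.Agent.Nodes.WittRGD Cfsg.Agent.Nodes.RGDLib Cfsg.Agent.Nodes.WittAll
open Cfsg.Agent.TitsThree Cfsg.Agent.TitsThree.Siegel Cfsg.Agent.TitsThree.WittFrame
  Cfsg.Agent.TitsThree.WittWeyl Cfsg.Agent.TitsThree.FrameCN Cfsg.Agent.TitsThree.SpIdent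
open Cfsg.Agent.Nodes.StabComb Cfsg.Agent.Nodes.Bruhat Cfsg.Agent.Nodes.LeviDec Cfsg.Agent.Nodes.WittU
open Cfsg.Agent.H62.PCFrame Cfsg.Agent.H62.PCWitt Cfsg.Agent.H985.VZ Module Cfsg.Agent.H410.OZ
open Cfsg.Agent.ChevalleyStructure.SL2Hom Cfsg.Agent.H62.FrameSL Cfsg.Agent.ClassicalGeometry.SympBasic
open Cfsg.Agent.H200.VZ
open scoped MatrixGroups

/-! ### Two elements with a property -/

section Model

variable {F : Type*} [Field F] [Finite F] {V : Type*} [AddCommGroup V] [Module F V] [Finite V] {H : HForm F V} {n : ℕ}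
  {Fr : Frame H (Fin n)} {K : Type*} [Group K] {M : Model Fr K}
  {W : Type*} [Group W] {p : ℕ} [Fact p.Prime]
  [CharP F p] (hA : AmbT Fr p M.I) {p0 : Fr.Adm} (hp0 : p0.c ≠ 0) (hn : 0 < n)

include hA hp0 hn

/-- **two non-conjugate elliptic elements, with a property of all these elements** -/
theorem exists_two_P (cs : CoxeterSystem (CoxeterMatrix.B n) W) (hσ : ∀ a, H.σ a = a) (i : Fin n) {s : ℕ}
    {D : V ≃ₗ[F] V} (hD : Comp Fr i s D)
    (hiso : ∀ U : Submodule F V, U ≤ Mid Fr i → (∀ x ∈ U, ∀ y ∈ U, H.h x y = 0) → (∀ x ∈ U, D x ∈ U) → U = ⊥)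
    (hnd : ∀ v ∈ Mid Fr i, (∀ w ∈ Mid Fr i, H.h v w = 0) → v = 0) {e : ℕ}
    (hI : ∀ (g : V ≃ₗ[F] V), H.IsIso g → g * D = D * g → (∀ v ∈ Mid Fr i, g v = v) → g ^ e * D ∈ M.I) {a b : ℕ}
    (ha : Good (Nat.card F ^ ((i : ℕ) + 1) - 1) (Nat.card F) (i + 1) s (a * e))
    (hb : Good (Nat.card F ^ ((i : ℕ) + 1) - 1) (Nat.card F) (i + 1) s (b * e))
    (hab : Pair (Nat.card F ^ ((i : ℕ) + 1) - 1) (Nat.card F) (i + 1) s (a * e) (b * e)) {P : K → Prop}
    (hP : ∀ (β : Basis {k : Fin n // k ≤ i} F (FiniteField.Extension F p (i + 1)))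
      (z : (FiniteField.Extension F p (i + 1))ˣ) (ht : gl Fr β z * D ∈ M.I), P (M.φ ⟨gl Fr β z * D, ht⟩)) :
    ∃ t t' : K, Ell cs (isCartan n) (WittModel.T M) (WittModel.X M) {i}ᶜ t ∧
      Ell cs (isCartan n) (WittModel.T M) (WittModel.X M) {i}ᶜ t' ∧ ¬ IsConj t t' ∧ P t ∧ P t' := by
  let L := FiniteField.Extension F p (i + 1)
  have hfr : finrank F L = i + 1 := FiniteField.finrank_extension F p (i + 1)
  have : FiniteDimensional F L := Module.Finite.of_finite
  have hcard : Fintype.card {k : Fin n // k ≤ i} = i + 1 := by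
    rw [Fintype.card_subtype]
    have : (Finset.univ.filter fun k : Fin n => k ≤ i) = Finset.Iic i := by
      ext k; simp
    rw [this, Fin.card_Iic]
  have β : Basis {k : Fin n // k ≤ i} F L :=
    (finBasis F L).reindex ((finCongr hfr).trans (Fintype.equivFinOfCardEq hcard).symm)
  have hcL : Nat.card Lˣ = Nat.card F ^ ((i : ℕ) + 1) - 1 := by
    have h1 : Nat.card L = Nat.card F ^ ((i : ℕ) + 1) := FiniteField.natCard_extension F p (i + 1)
    rw [Nat.card_units, h1]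
  obtain ⟨γ, hγ⟩ := IsCyclic.exists_generator (α := Lˣ)
  have hord : orderOf γ = Nat.card F ^ ((i : ℕ) + 1) - 1 := by rw [orderOf_eq_card_of_forall_mem_zpowers hγ, hcL]
  have hmem : ∀ k : ℕ, gl Fr β (γ ^ (k * e)) * D ∈ M.I := fun k => by
    rw [pow_mul, map_pow]
    refine hI _ (isIso_gl hσ _) ?_ fun v hv => gl_Mid _ hv
    ext v
    obtain ⟨x, hx, y, hy, w, hw, rfl⟩ := exists_decomp (Fr := Fr) i v
    obtain ⟨x, rfl⟩ := exists_eE β hx
    obtain ⟨l, rfl⟩ := exists_fF β hy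
    change gl Fr β (γ ^ k) (D (eE Fr β x + fF Fr β l + w)) = D (gl Fr β (γ ^ k) (eE Fr β x + fF Fr β l + w))
    simp only [map_add, hD.eE, hD.fF, gl_eE, gl_fF, gl_Mid _ hw, gl_Mid _ (hD.mid hw)]
  refine ⟨M.φ ⟨_, hmem a⟩, M.φ ⟨_, hmem b⟩, ?_, ?_, ?_, hP β _ _, hP β _ _⟩
  · exact ell_gl hA hp0 hn hD (hmem a) (ha.adjoin hord rfl hfr) (ha.ne hord) (ha.root hord rfl hfr) hiso hnd
  · exact ell_gl hA hp0 hn hD (hmem b) (hb.adjoin hord rfl hfr) (hb.ne hord) (hb.root hord rfl hfr) hiso hnd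
  · exact not_isConj_gl hA hn hσ hD hD (hmem a) (hmem b) (fun c hc => hab.root hord rfl hfr hc)
      (fun c hc => hab.root_inv hord rfl hfr hc) (fun c hc => hab.ne hord rfl hc)

end Model

/-! ### The norm form of an anisotropic element of `SL₂` -/

theorem exists_norm {F : Type*} [Field F] [Finite F] {C : SL(2, F)} (hC : Anis C.1) (x : F) :
    ∃ u v : F, u ^ 2 + u * v * (C.1 0 0 + C.1 1 1) + v ^ 2 = x := by
  have : Fintype F := Fintype.ofFinite F
  have hdet : C.1 0 0 * C.1 1 1 - C.1 0 1 * C.1 1 0 = 1 := by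
    have := C.2
    rwa [Matrix.det_fin_two] at this
  by_cases h2 : ringChar F = 2
  · obtain ⟨u, hu⟩ := FiniteField.isSquare_of_char_two h2 x
    exact ⟨u, 0, by rw [hu]; ring⟩
  · have h2' : (2 : F) ≠ 0 := Ring.two_ne_zero h2
    set τ := C.1 0 0 + C.1 1 1 with hτ
    have hκ : 1 - τ ^ 2 / 4 ≠ 0 := by
      intro h0
      have h4 : (4 : F) ≠ 0 := by
        have : (4 : F) = 2 * 2 := by norm_num
        rw [this]
        exact mul_ne_zero h2' h2'
      have h1 : τ ^ 2 = 4 := by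
        field_simp at h0
        linear_combination -h0
      have h3 : C.1 1 0 ≠ 0 := by
        intro h3
        have := (hC 1 0 (by rw [h3]; ring)).1
        exact one_ne_zero this
      have h5 := (hC (C.1 1 1 - C.1 0 0) (2 * C.1 1 0) (by
        rw [hτ] at h1
        linear_combination (-C.1 1 0) * h1 + 4 * C.1 1 0 * hdet)).2
      rcases mul_eq_zero.1 h5 with h6 | h6
      · exact h2' h6
      · exact h3 h6
    obtain ⟨a, b, hab⟩ := FiniteField.exists_root_sum_quadratic (R := F)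
      (f := Polynomial.X ^ 2 - Polynomial.C x) (g := Polynomial.C (1 - τ ^ 2 / 4) * Polynomial.X ^ 2)
      (Polynomial.degree_X_pow_sub_C (by decide) _)
      (by rw [Polynomial.degree_C_mul hκ, Polynomial.degree_X_pow]; rfl)
      (FiniteField.odd_card_of_char_ne_two h2)
    simp only [Polynomial.eval_sub, Polynomial.eval_pow, Polynomial.eval_X, Polynomial.eval_C,
      Polynomial.eval_mul] at hab
    refine ⟨a - τ * b / 2, b, ?_⟩
    have h4 : (4 : F) = 2 * 2 := by norm_num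
    rw [h4] at hab
    field_simp at hab ⊢
    linear_combination hab

/-- conjugation of `C` by `diag(x⁻¹, 1)` is a conjugation in `SL₂` -/
theorem exists_conj {F : Type*} [Field F] [Finite F] {C : SL(2, F)} (hC : Anis C.1) (x : Fˣ) :
    ∃ A C' : SL(2, F), A * C = C' * A ∧ C'.1 0 0 = C.1 0 0 ∧ C'.1 0 1 = (x : F)⁻¹ * C.1 0 1 ∧
      C'.1 1 0 = x * C.1 1 0 ∧ C'.1 1 1 = C.1 1 1 := by
  have hdet : C.1 0 0 * C.1 1 1 - C.1 0 1 * C.1 1 0 = 1 := by
    have := C.2
    rwa [Matrix.det_fin_two] at this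
  have hx := x.ne_zero
  obtain ⟨u, v, huv⟩ := exists_norm hC (x : F)
  refine ⟨⟨!![(x : F)⁻¹ * (u + v * C.1 0 0), (x : F)⁻¹ * (v * C.1 0 1); v * C.1 1 0, u + v * C.1 1 1], ?_⟩,
    ⟨!![C.1 0 0, (x : F)⁻¹ * C.1 0 1; x * C.1 1 0, C.1 1 1], ?_⟩, ?_, rfl, rfl, rfl, rfl⟩
  · rw [Matrix.det_fin_two_of]
    field_simp
    linear_combination huv + v ^ 2 * hdet
  · rw [Matrix.det_fin_two_of]
    field_simp
    linear_combination hdet
  · apply mt_inj
    have e : mt C = !![C.1 0 0, C.1 0 1; C.1 1 0, C.1 1 1] := Matrix.eta_fin_two _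
    change !![(x : F)⁻¹ * (u + v * C.1 0 0), (x : F)⁻¹ * (v * C.1 0 1); v * C.1 1 0, u + v * C.1 1 1] * mt C =
      !![C.1 0 0, (x : F)⁻¹ * C.1 0 1; x * C.1 1 0, C.1 1 1] *
        !![(x : F)⁻¹ * (u + v * C.1 0 0), (x : F)⁻¹ * (v * C.1 0 1); v * C.1 1 0, u + v * C.1 1 1]
    rw [e, Matrix.mul_fin_two, Matrix.mul_fin_two]
    congr 1
    funext a
    fin_cases a <;> (funext b; fin_cases b <;> simp <;> field_simp <;> ring)

/-! ### `HD` -/

section sp

variable {F : Type*} [Field F] {m : ℕ}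

theorem conj_phiL_gen (a : Fin m → Fˣ) (c : Fˣ) (j : Fin m) {C C' : SL(2, F)} (h00 : C'.1 0 0 = C.1 0 0)
    (h01 : C'.1 0 1 = a j * a j * (c : F)⁻¹ * C.1 0 1) (h10 : C'.1 1 0 = c * (a j : F)⁻¹ * (a j : F)⁻¹ * C.1 1 0)
    (h11 : C'.1 1 1 = C.1 1 1) :
    dm (w2 a c) * phiL (frame m F) j C * (dm (w2 a c))⁻¹ = phiL (frame m F) j C' := by
  have ha := (a j).ne_zero
  have hc := c.ne_zero
  rw [mul_inv_eq_iff_eq_mul]
  apply lin_ext
  rintro ⟨k, s⟩
  change dm (w2 a c) (phiL (frame m F) j C _) = phiL (frame m F) j C' (dm (w2 a c) _)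
  by_cases hk : k = j
  · subst hk
    cases s
    · rw [dm_b, map_smul, phiL_f, phiL_f, map_add, map_smul, map_smul, dm_b, dm_b, w2_ix, w2_ix, h01, h11]
      simp only [wf, Bool.false_eq_true, if_false, if_true, Units.val_mul, Units.val_inv_eq_inv_val, smul_add, smul_smul]
      congr 2 <;> field_simp
    · rw [dm_b, map_smul, phiL_e, phiL_e, map_add, map_smul, map_smul, dm_b, dm_b, w2_ix, w2_ix, h10, h00]
      simp only [wf, Bool.false_eq_true, if_false, if_true, Units.val_mul, Units.val_inv_eq_inv_val, smul_add, smul_smul]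
      congr 2 <;> field_simp
  · rw [phiL_fix hk, dm_b, map_smul, phiL_fix hk]

variable {L : Type*} [Field L] [Algebra F L] {i : Fin m} (β : Basis {k : Fin m // k ≤ i} F L)

theorem dm_eE (x : Fˣ) (y : L) : dm (w2 (fun _ => x⁻¹) x⁻¹) (eE (frame m F) β y) = ((x⁻¹ : Fˣ) : F) • eE (frame m F) β y := by
  rw [eE_apply, map_sum, Finset.smul_sum]
  refine Finset.sum_congr rfl fun k _ => ?_
  rw [map_smul, dm_b, smul_comm]
  rfl

theorem dm_fF (x : Fˣ) (l : Dual F L) : dm (w2 (fun _ => x⁻¹) x⁻¹) (fF (frame m F) β l) = fF (frame m F) β l := by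
  rw [fF_apply, map_sum]
  refine Finset.sum_congr rfl fun k _ => ?_
  rw [map_smul, dm_b, w2_ix]
  simp [wf]

theorem dm_mid (x : Fˣ) {v : Fin m ⊕ Fin m → F} (hv : v ∈ Mid (frame m F) i) :
    dm (w2 (fun _ => x⁻¹) x⁻¹) v ∈ Mid (frame m F) i := by
  intro k hk s
  have h1 := h_dm (fun _ : Fin m => x⁻¹) x⁻¹ v ((frame m F).b (k, s))
  rw [dm_b, (form m F).smul_right, hv k hk s, mul_zero] at h1
  rcases mul_eq_zero.1 h1 with h2 | h2
  · exact absurd h2 (by rw [form_σ]; exact Units.ne_zero _)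
  · exact h2

theorem dm_gl (x : Fˣ) (z : Lˣ) : dm (w2 (fun _ => x⁻¹) x⁻¹) * gl (frame m F) β z =
    gl (frame m F) β z * dm (w2 (fun _ => x⁻¹) x⁻¹) := by
  ext1 v
  obtain ⟨y, hy, y', hy', w, hw, rfl⟩ := exists_decomp (Fr := frame m F) i v
  obtain ⟨y, rfl⟩ := exists_eE β hy
  obtain ⟨l, rfl⟩ := exists_fF β hy'
  change dm _ (gl (frame m F) β z (eE (frame m F) β y + fF (frame m F) β l + w)) =
    gl (frame m F) β z (dm _ (eE (frame m F) β y + fF (frame m F) β l + w))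
  simp only [map_add, gl_eE, gl_fF, gl_Mid _ hw, gl_Mid _ (dm_mid x hw), dm_eE, dm_fF, map_smul]

theorem phiL_gl {j : Fin m} (hij : i < j) [Finite F] (A : SL(2, F)) (z : Lˣ) :
    phiL (frame m F) j A * gl (frame m F) β z = gl (frame m F) β z * phiL (frame m F) j A := by
  have hc : Comp (frame m F) i (Nat.card SL(2, F)) (phiL (frame m F) j A) := comp_sp hij pow_card_eq_one'
  ext1 v
  obtain ⟨y, hy, y', hy', w, hw, rfl⟩ := exists_decomp (Fr := frame m F) i v
  obtain ⟨y, rfl⟩ := exists_eE β hy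
  obtain ⟨l, rfl⟩ := exists_fF β hy'
  change phiL (frame m F) j A (gl (frame m F) β z (eE (frame m F) β y + fF (frame m F) β l + w)) =
    gl (frame m F) β z (phiL (frame m F) j A (eE (frame m F) β y + fF (frame m F) β l + w))
  simp only [map_add, gl_eE, gl_fF, gl_Mid _ hw, gl_Mid _ (hc.mid hw), hc.eE, hc.fF]

variable [Finite F] {p : ℕ} [Fact p.Prime] [CharP F p] (hA : AmbT (frame m F) p (KInstSp.model m F).I)
  {W : Type*} [Group W] (cs : CoxeterSystem (CoxeterMatrix.B m) W)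

theorem cw_last {j : Fin m} (hj : (j : ℕ) + 1 = m) (x : Fˣ) : cw j x = fun _ => x⁻¹ := by
  funext k
  have := k.2
  rw [cw, if_pos (by omega)]

theorem cm_last {j : Fin m} (hj : (j : ℕ) + 1 = m) (x : Fˣ) : cm j x = x⁻¹ := by
  rw [cm, if_neg (by omega)]

theorem hd_gen {J : Set (Fin m)} {t : PSp m F} (hlast : ∀ j : Fin m, (j : ℕ) + 1 = m → ∀ x : Fˣ,
      ∃ a ∈ LJ cs (isCartan m) (WittModel.T (KInstSp.model m F)) (WittModel.X (KInstSp.model m F)) J,
        dI j x t = a * t * a⁻¹) :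
    HD cs (isCartan m) (WittModel.T (KInstSp.model m F)) (fun i => nS hA i) (WittModel.X (KInstSp.model m F))
      (hc (m := m) (F := F)) J t := by
  refine hd_sp hA cs fun j x => ?_
  by_cases hj : (j : ℕ) + 1 < m
  · refine ⟨tt (cw j x), T_le_LJ (tt_mem _), ?_⟩
    obtain ⟨g, rfl⟩ := toPSp_surjective t
    rw [dI, dP_apply, tt_apply, ← map_inv, ← map_mul, ← map_mul]
    congr 1
    apply Subtype.ext
    change dm (w2 (cw j x) (cm j x)) * g.1 * (dm (w2 (cw j x) (cm j x)))⁻¹ =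
      dm (w2 (cw j x) 1) * g.1 * (dm (w2 (cw j x) 1))⁻¹
    rw [cm, if_pos hj]
  · exact hlast j (by have := j.2; omega) x

theorem hd_last {i : Fin m} (β : Basis {k : Fin m // k ≤ i} F L) (z : Lˣ)
    (ht : gl (frame m F) β z * 1 ∈ (KInstSp.model m F).I) :
    HD cs (isCartan m) (WittModel.T (KInstSp.model m F)) (fun i => nS hA i) (WittModel.X (KInstSp.model m F))
      (hc (m := m) (F := F)) {i}ᶜ ((KInstSp.model m F).φ ⟨gl (frame m F) β z * 1, ht⟩) := by
  refine hd_gen hA cs fun j hj x => ⟨1, one_mem _, ?_⟩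
  have key : ∀ g : isos (form m F), g.1 = gl (frame m F) β z * 1 → dI j x (toPSp g) = toPSp g := by
    intro g hg
    rw [dI, dP_apply]
    congr 1
    apply Subtype.ext
    rw [coe_cI, hg, cw_last hj, cm_last hj, mul_one, dm_gl, mul_inv_cancel_right]
  refine (key _ rfl).trans ?_
  simp only [one_mul, inv_one]
  exact (mul_one _).symm

theorem hd_pen {i j : Fin m} (hi : (i : ℕ) + 2 = m) (hj : (j : ℕ) + 1 = m) {C : SL(2, F)} (hC : Anis C.1)
    (β : Basis {k : Fin m // k ≤ i} F L) (z : Lˣ)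
    (ht : gl (frame m F) β z * phiL (frame m F) j C ∈ (KInstSp.model m F).I) :
    HD cs (isCartan m) (WittModel.T (KInstSp.model m F)) (fun i => nS hA i) (WittModel.X (KInstSp.model m F))
      (hc (m := m) (F := F)) {i}ᶜ ((KInstSp.model m F).φ ⟨gl (frame m F) β z * phiL (frame m F) j C, ht⟩) := by
  have hij : i < j := by rw [Fin.lt_def]; omega
  refine hd_gen hA cs fun j' hj' x => ?_
  have hjj : j' = j := Fin.ext (by omega)
  subst hjj
  obtain ⟨A, C', hAC, h00, h01, h10, h11⟩ := exists_conj hC x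
  have hcA : Comp (frame m F) i (Nat.card SL(2, F)) (phiL (frame m F) j' A) := comp_sp hij pow_card_eq_one'
  have hAm : phiL (frame m F) j' A ∈ (KInstSp.model m F).I := phiL_isIso j' A
  refine ⟨(KInstSp.model m F).φ ⟨phiL (frame m F) j' A, hAm⟩,
    mem_LJ_of (M := KInstSp.model m F) hA (p0 := SpIdent.adm 1) one_ne_zero (by omega) ?_ ?_, ?_⟩
  · intro y hy
    obtain ⟨y, rfl⟩ := exists_eE β hy
    rw [hcA.eE]
    exact hy
  · intro y hy
    obtain ⟨y, rfl⟩ := exists_fF β hy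
    rw [hcA.fF]
    exact hy
  · have key : ∀ g a : isos (form m F), g.1 = gl (frame m F) β z * phiL (frame m F) j' C →
        a.1 = phiL (frame m F) j' A → dI j' x (toPSp g) = toPSp a * toPSp g * (toPSp a)⁻¹ := by
      intro g a hg ha
      rw [dI, dP_apply, ← map_inv, ← map_mul, ← map_mul]
      congr 1
      apply Subtype.ext
      change dm (w2 (cw j' x) (cm j' x)) * g.1 * (dm (w2 (cw j' x) (cm j' x)))⁻¹ = a.1 * g.1 * a.1⁻¹
      rw [hg, ha, cw_last hj', cm_last hj', ← mul_assoc, dm_gl, mul_assoc (gl (frame m F) β z), mul_assoc (gl (frame m F) β z),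
        conj_phiL_gen (fun _ : Fin m => x⁻¹) x⁻¹ j' (C := C) (C' := C') h00 ?_ ?_ h11, ← mul_assoc (phiL (frame m F) j' A),
        phiL_gl β hij, mul_assoc (gl (frame m F) β z), mul_assoc (gl (frame m F) β z), ← map_mul, hAC, map_mul,
        mul_inv_cancel_right]
      · rw [h01]
        have hx := x.ne_zero
        simp only [Units.val_inv_eq_inv_val]
        field_simp
      · rw [h10]
        have hx := x.ne_zero
        simp only [Units.val_inv_eq_inv_val]
        field_simp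
    exact key _ _ rfl rfl

/-- **`J = {m - 1}ᶜ = A_(m-1)`.** -/
theorem psp_last_HD (hm : m = 3 ∨ m = 4) (hq : 3 ≤ Nat.card F) {i : Fin m} (hi : i.1 + 1 = m) :
    ∃ t t' : PSp m F, Ell cs (isCartan m) (WittModel.T (KInstSp.model m F)) (WittModel.X (KInstSp.model m F)) {i}ᶜ t ∧
      Ell cs (isCartan m) (WittModel.T (KInstSp.model m F)) (WittModel.X (KInstSp.model m F)) {i}ᶜ t' ∧
      ¬ IsConj t t' ∧
      HD cs (isCartan m) (WittModel.T (KInstSp.model m F)) (fun i => nS hA i) (WittModel.X (KInstSp.model m F))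
        (hc (m := m) (F := F)) {i}ᶜ t ∧
      HD cs (isCartan m) (WittModel.T (KInstSp.model m F)) (fun i => nS hA i) (WittModel.X (KInstSp.model m F))
        (hc (m := m) (F := F)) {i}ᶜ t' := by
  have hmid : ∀ U : Submodule F (Fin m ⊕ Fin m → F), U ≤ Mid (frame m F) i → U = ⊥ := fun U hU => by
    rw [eq_bot_iff]
    intro x hx
    rw [Submodule.mem_bot]
    exact mid_sp hi (hU hx)
  refine exists_two_P (M := KInstSp.model m F) (p := p) (AmbT.of_amb amb_Sp p) (p0 := SpIdent.adm 1) one_ne_zero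
    (by omega) cs (fun _ => rfl) i (comp_one (frame m F) i) (fun U hU _ _ => hmid U hU) (nd_of fun v h => nd_sp h)
    (e := 1) (fun g hg _ _ => ?_) (a := 2) (b := 4) ?_ ?_ ?_ (fun β z ht => hd_last hA cs β z ht)
  · rw [pow_one, mul_one]
    exact hg
  all_goals rw [hi, mul_one]; try rw [mul_one]
  all_goals rcases hm with rfl | rfl
  · exact good3 hq (Or.inl rfl) (Or.inl rfl)
  · exact good4 hq (Or.inl rfl)
  · exact good3 hq (Or.inl rfl) (Or.inr rfl)
  · exact good4 hq (Or.inr rfl)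
  · exact pair3 hq (Or.inl rfl)
  · exact pair4 hq

/-- **`J = {m - 2}ᶜ = A_(m-2) × A_1`.** -/
theorem psp_pen_HD (hm : m = 4 ∧ 3 ≤ Nat.card F ∨ m = 3 ∧ 4 ≤ Nat.card F) {i : Fin m} (hi : i.1 + 2 = m) :
    ∃ t t' : PSp m F, Ell cs (isCartan m) (WittModel.T (KInstSp.model m F)) (WittModel.X (KInstSp.model m F)) {i}ᶜ t ∧
      Ell cs (isCartan m) (WittModel.T (KInstSp.model m F)) (WittModel.X (KInstSp.model m F)) {i}ᶜ t' ∧
      ¬ IsConj t t' ∧
      HD cs (isCartan m) (WittModel.T (KInstSp.model m F)) (fun i => nS hA i) (WittModel.X (KInstSp.model m F))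
        (hc (m := m) (F := F)) {i}ᶜ t ∧
      HD cs (isCartan m) (WittModel.T (KInstSp.model m F)) (fun i => nS hA i) (WittModel.X (KInstSp.model m F))
        (hc (m := m) (F := F)) {i}ᶜ t' := by
  obtain ⟨C, hC1, hC, -⟩ := exists_C F (p := p)
  obtain ⟨j, hj⟩ : ∃ j : Fin m, j.1 + 1 = m := ⟨⟨m - 1, by omega⟩, by change m - 1 + 1 = m; omega⟩
  have hij : i < j := by rw [Fin.lt_def]; omega
  have key : ∀ e : ℕ, ∀ (g : (Fin m ⊕ Fin m → F) ≃ₗ[F] (Fin m ⊕ Fin m → F)), (form m F).IsIso g →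
      g * phiL (frame m F) j C = phiL (frame m F) j C * g → (∀ v ∈ Mid (frame m F) i, g v = v) →
      g ^ e * phiL (frame m F) j C ∈ (KInstSp.model m F).I := fun e g hg _ _ =>
    (KInstSp.model m F).I.mul_mem ((KInstSp.model m F).I.pow_mem hg e) (phiL_isIso j C)
  rcases hm with ⟨rfl, hq⟩ | ⟨rfl, hq⟩
  · refine exists_two_P (M := KInstSp.model 4 F) (p := p) (AmbT.of_amb amb_Sp p) (p0 := SpIdent.adm 1) one_ne_zero
      (by omega) cs (fun _ => rfl) i (comp_sp hij hC1) (iso_sp hi hj hC) (nd_of fun v h => nd_sp h)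
      (e := 1) (key 1) (a := 2) (b := 4) ?_ ?_ ?_ (fun β z ht => hd_pen hA cs hi hj hC β z ht)
    all_goals rw [show (i : ℕ) + 1 = 3 by omega, mul_one]; try rw [mul_one]
    · exact good3 hq (Or.inr rfl) (Or.inl rfl)
    · exact good3 hq (Or.inr rfl) (Or.inr rfl)
    · exact pair3 hq (Or.inr rfl)
  · refine exists_two_P (M := KInstSp.model 3 F) (p := p) (AmbT.of_amb amb_Sp p) (p0 := SpIdent.adm 1) one_ne_zero
      (by omega) cs (fun _ => rfl) i (comp_sp hij hC1) (iso_sp hi hj hC) (nd_of fun v h => nd_sp h)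
      (e := 1) (key 1) (a := 1) (b := 2) ?_ ?_ ?_ (fun β z ht => hd_pen hA cs hi hj hC β z ht)
    all_goals rw [show (i : ℕ) + 1 = 2 by omega, mul_one]; try rw [mul_one]
    · exact good2 hq (Or.inl rfl)
    · exact good2 hq (Or.inr rfl)
    · exact pair2 hq

end sp

end Cfsg.Agent.H769.OZ
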