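import Cfsg.Agent.H769.OZ.BalSL
import Cfsg.Agent.H62.FrameSL
import Cfsg.Agent.Nodes.WittAll
import Cfsg.Agent.TitsThree.KInstSp

/-!
# Witt models: the root groups of type I are images of `SL₂`, in the symplectic case also those of type II
(helper769, S4842)

* `bal_short`, `qq_short` : `i + 1 < n`;
* `bal_long`, `qq_long` : `PSp`, the last node.
-/

set_option autoImplicit false
set_option linter.unusedSectionVars false

namespace Cfsg.Agent.H769.OZ

open CoxeterSystem Cfsg Cfsg.Agent.ChevalleyStructure.CoxeterGeom Cfsg.Agent.Tits.Roots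
open Cfsg.Agent.Tits.Core Cfsg.Agent.Tits.RootComb Cfsg.Agent.Nodes.TypeC
open Cfsg.Agent.Nodes Cfsg.Agent.Nodes.Comb Cfsg.Agent.Nodes.Reps Cfsg.Agent.Nodes.WittRoot Cfsg.Agent.Nodes.BNOf
open Cfsg.Agent.Nodes.WittRGD Cfsg.Agent.Nodes.WittAll Cfsg.Agent.Nodes.OppDec
open Cfsg.Agent.TitsThree Cfsg.Agent.TitsThree.Siegel Cfsg.Agent.TitsThree.WittFrame
  Cfsg.Agent.TitsThree.WittWeyl Cfsg.Agent.TitsThree.FrameCN Cfsg.Agent.TitsThree.SpIdent
open Cfsg.Agent.ChevalleyStructure.SL2Hom Cfsg.Agent.H985.VZ Cfsg.Agent.H62.FrameSL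
open Matrix

variable {F : Type*} [Field F] {V : Type*} [AddCommGroup V] [Module F V] {H : HForm F V} {n : ℕ}
  {Fr : Frame H (Fin n)} {K : Type*} [Group K] (M : Model Fr K) {p : ℕ}

section gen

variable {i : Fin n} {Φ : SpecialLinearGroup (Fin 2) F →* (V ≃ₗ[F] V)} (h1 : ∀ g, Φ g ∈ M.I)

include h1

/-- the map to the model -/
def fM : SpecialLinearGroup (Fin 2) F →* K := M.φ.comp (Φ.codRestrict M.I h1)

theorem fM_apply (g : SpecialLinearGroup (Fin 2) F) : fM M h1 g = M.φ ⟨Φ g, h1 g⟩ := rfl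

theorem fM_U (h2 : ∀ g, g ∈ WittRoot.rg Fr (sr i) ↔ ∃ c, g = Φ (up c)) (y : K) :
    y ∈ WittModel.X M (sr i) ↔ ∃ c, y = fM M h1 (up c) := by
  rw [WittModel.mem_X]
  constructor
  · rintro ⟨g, hg, hg2, rfl⟩
    obtain ⟨c, rfl⟩ := (h2 g).1 hg2
    exact ⟨c, rfl⟩
  · rintro ⟨c, rfl⟩
    exact ⟨Φ (up c), h1 _, (h2 _).2 ⟨c, rfl⟩, rfl⟩

theorem fM_inj (h3 : ∀ c, (∀ v, ∃ a : F, Φ (up c) v = a • v) → c = 0) (c : F) (h : fM M h1 (up c) = 1) : c = 0 :=
  h3 c fun v => M.ker v _ h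

theorem fM_T (h4 : ∀ a, Mono Fr (Φ (dg a)) id) (a : Fˣ) : fM M h1 (dg a) ∈ WittModel.T M :=
  Subgroup.mem_map_of_mem _ (Subgroup.mem_subgroupOf.2 ((mem_Tor Fr M.I).2 ⟨h1 _, h4 a⟩))

variable {W : Type*} [Group W] {cs : CoxeterSystem (CoxeterMatrix.B n) W} {nw : Fin n → K}

theorem bal_of [Finite F] [Finite W] (R : RGD cs (isCartan n) p (WittModel.T M) nw (WittModel.X M))
    (h2 : ∀ g, g ∈ WittRoot.rg Fr (sr i) ↔ ∃ c, g = Φ (up c))
    (h3 : ∀ c, (∀ v, ∃ a : F, Φ (up c) v = a • v) → c = 0) (h4 : ∀ a, Mono Fr (Φ (dg a)) id)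
    (h5 : ∃ a, nw i = fM M h1 (dg a * wm)) : Bal (WittModel.X M) (WittModel.T M) nw i :=
  bal_SL R (fM M h1) (fM_U M h1 h2) (fM_inj M h1 h3) (fM_T M h1 h4) h5

theorem qq_of (h2 : ∀ g, g ∈ WittRoot.rg Fr (sr i) ↔ ∃ c, g = Φ (up c))
    (h3 : ∀ c, (∀ v, ∃ a : F, Φ (up c) v = a • v) → c = 0) : qq (WittModel.X M) i = Nat.card F :=
  qq_SL (fM M h1) (fM_U M h1 h2) (fM_inj M h1 h3)

end gen

/-! ### Matrices -/

theorem coe_lo (c : F) : mt (lo c) = !![1, 0; c, 1] := rfl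

theorem wm_up : up (1 : F) * lo (-1) * up 1 = dg 1 * wm := by
  apply mt_inj
  rw [mt_mul, mt_mul, mt_mul, coe_up, coe_lo, coe_wm, coe_dg, Matrix.mul_fin_two, Matrix.mul_fin_two,
    Matrix.mul_fin_two]
  simp

theorem wm_up' : up (-1 : F) * lo 1 * up (-1) = dg (-1) * wm := by
  apply mt_inj
  rw [mt_mul, mt_mul, mt_mul, coe_up, coe_lo, coe_wm, coe_dg, Matrix.mul_fin_two, Matrix.mul_fin_two,
    Matrix.mul_fin_two]
  simp

/-! ### Type I -/

section short

variable {i j : Fin n} (hij : (i : ℕ) + 1 = j)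

include hij in
theorem ne_of_succ : i ≠ j := fun h => by rw [h] at hij; omega

include hij in
theorem nx_eq : nx i = (j, false) := by
  have hi : (i : ℕ) + 1 < n := by have := j.2; omega
  unfold nx
  rw [dif_pos hi]
  congr 1
  exact Fin.ext hij

theorem phiS_mem (hA : AmbT Fr p M.I) (hne : i ≠ j) (g : SpecialLinearGroup (Fin 2) F) : phiS Fr hne g ∈ M.I := by
  have h1 : (phiS Fr hne).range ≤ M.I := by
    rw [phiS_range]
    refine sup_le ?_ ?_
    · have := hA.PG_le (a := (i, true)) (b := (j, false))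
      rwa [PG_ne Fr (by exact hne)] at this
    · have := hA.PG_le (a := (j, true)) (b := (i, false))
      rwa [PG_ne Fr (by exact hne.symm)] at this
  exact h1 ⟨g, rfl⟩

include hij in
theorem phiS_rg (g : V ≃ₗ[F] V) : g ∈ WittRoot.rg Fr (sr i) ↔ ∃ c, g = phiS Fr (ne_of_succ hij) (up c) := by
  rw [rg_sr, nx_eq hij, PG_ne Fr (by exact ne_of_succ hij), mem_XG]
  simp only [phiS_up]

theorem phiS_scalar (hne : i ≠ j) (c : F) (h : ∀ v, ∃ a : F, phiS Fr hne (up c) v = a • v) : c = 0 := by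
  obtain ⟨a, ha⟩ := h (Fr.b (j, true))
  rw [phiS_e'] at ha
  have h1 : (up c).1 0 1 • Fr.b (i, true) + (up c).1 1 1 • Fr.b (j, true) = (0 : F) • Fr.b (i, true) + a • Fr.b (j, true) := by
    rw [ha, zero_smul, zero_add]
  exact (indep Fr hne h1).1

theorem phiS_mono_dg (hne : i ≠ j) (a : Fˣ) : Mono Fr (phiS Fr hne (dg a)) id := by
  have hε := H.ε_ne
  have e00 : (dg a).1 0 0 = (a : F) := rfl
  have e01 : (dg a).1 0 1 = 0 := rfl
  have e10 : (dg a).1 1 0 = 0 := rfl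
  have e11 : (dg a).1 1 1 = (a⁻¹ : Fˣ) := rfl
  rintro ⟨k, s⟩
  by_cases h1 : k = i
  · subst h1
    cases s
    · refine ⟨H.σ ((a⁻¹ : Fˣ) : F), by simp, ?_⟩
      rw [phiS_apply, linS_apply, e00, e01, e10, e11]
      simp only [hf, hs, hn Fr hne, mul_zero, mul_one, add_zero, sub_zero, zero_smul, map_zero,
        inv_mul_cancel₀ hε, id, neg_zero]
      module
    · refine ⟨a, a.ne_zero, ?_⟩
      rw [phiS_e, e00, e10, zero_smul, add_zero]
      rfl
  · by_cases h2 : k = j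
    · subst h2
      cases s
      · refine ⟨H.σ (a : F), by simp, ?_⟩
        rw [phiS_apply, linS_apply, e00, e01, e10, e11]
        simp only [hf, hs, hn Fr hne.symm, mul_zero, mul_one, add_zero, zero_add, sub_zero, zero_smul,
          map_zero, inv_mul_cancel₀ hε, id, neg_zero]
        module
      · refine ⟨(a⁻¹ : Fˣ), Units.ne_zero _, ?_⟩
        rw [phiS_e', e01, e11, zero_smul, zero_add]
        rfl
    · refine ⟨1, one_ne_zero, ?_⟩
      rw [phiS_apply, linS_apply, e00, e01, e10, e11]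
      simp only [hn Fr h1, hn Fr h2, mul_zero, add_zero, sub_zero, zero_smul, one_smul, id]

include hij in
theorem nn_short (p0 : Fr.Adm) : nn Fr p0 i = phiS Fr (ne_of_succ hij) (dg 1 * wm) := by
  have hi : (i : ℕ) + 1 < n := by have := j.2; omega
  rw [WittRGD.nn, if_pos hi, nx_eq hij, ← wm_up, map_mul, map_mul, phiS_up, phiS_lo, nX, inv_one]
  rfl

variable {W : Type*} [Group W] {cs : CoxeterSystem (CoxeterMatrix.B n) W} {nw : Fin n → K}

include hij in
theorem bal_short [Finite F] [Finite W] (hA : AmbT Fr p M.I)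
    (R : RGD cs (isCartan n) p (WittModel.T M) nw (WittModel.X M)) {p0 : Fr.Adm}
    (hnw : nw i = M.φ ⟨nn Fr p0 i, WittAll.nn_mem hA p0 i⟩) : Bal (WittModel.X M) (WittModel.T M) nw i :=
  bal_of M (phiS_mem M hA (ne_of_succ hij)) R (phiS_rg hij) (phiS_scalar _) (phiS_mono_dg _)
    ⟨1, by rw [hnw, fM_apply]; congr 1; exact Subtype.ext (nn_short hij p0)⟩

include hij in
theorem qq_short (hA : AmbT Fr p M.I) : qq (WittModel.X M) i = Nat.card F :=
  qq_of M (phiS_mem M hA (ne_of_succ hij)) (phiS_rg hij) (phiS_scalar _)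

end short

/-! ### Type II, the symplectic case -/

section long

variable {m : ℕ} {i : Fin m} (hi : ¬ (i : ℕ) + 1 < m)

include hi in
theorem nx_last : nx i = (i, true) := by
  unfold nx
  rw [dif_neg hi]

theorem phiL_mem (hA : AmbT (frame m F) p (KInstSp.model m F).I) (i : Fin m) (g : SpecialLinearGroup (Fin 2) F) :
    phiL (frame m F) i g ∈ (KInstSp.model m F).I := by
  have h1 : (phiL (frame m F) i).range ≤ (KInstSp.model m F).I := by
    rw [phiL_range]
    refine sup_le ?_ ?_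
    · have := hA.PG_le (a := (i, true)) (b := (i, true))
      rwa [PG_self] at this
    · have := hA.PG_le (a := (i, false)) (b := (i, false))
      rwa [PG_self] at this
  exact h1 ⟨g, rfl⟩

include hi in
theorem phiL_rg (g : (Fin m ⊕ Fin m → F) ≃ₗ[F] (Fin m ⊕ Fin m → F)) :
    g ∈ WittRoot.rg (frame m F) (sr i) ↔ ∃ c, g = phiL (frame m F) i (up c) := by
  rw [rg_sr, nx_last hi, PG_self, mem_ZG]
  constructor
  · rintro ⟨q, rfl⟩
    refine ⟨-q.c, ?_⟩
    rw [phiL_up, _root_.neg_neg, ← eq_adm]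
  · rintro ⟨c, rfl⟩
    exact ⟨_, phiL_up i c⟩

theorem phiL_scalar (i : Fin m) (c : F) (h : ∀ v, ∃ a : F, phiL (frame m F) i (up c) v = a • v) : c = 0 := by
  obtain ⟨a, ha⟩ := h ((frame m F).b (i, false))
  rw [phiL_f] at ha
  have h1 : (up c).1 0 1 • (frame m F).b (i, true) + (up c).1 1 1 • (frame m F).b (i, false) =
      (0 : F) • (frame m F).b (i, true) + a • (frame m F).b (i, false) := by
    rw [ha, zero_smul, zero_add]
  exact (indepL (frame m F) i h1).1

theorem phiL_mono_dg (i : Fin m) (a : Fˣ) : Mono (frame m F) (phiL (frame m F) i (dg a)) id := by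
  have e00 : (dg a).1 0 0 = (a : F) := rfl
  have e01 : (dg a).1 0 1 = 0 := rfl
  have e10 : (dg a).1 1 0 = 0 := rfl
  have e11 : (dg a).1 1 1 = (a⁻¹ : Fˣ) := rfl
  rintro ⟨k, s⟩
  by_cases h1 : k = i
  · subst h1
    cases s
    · refine ⟨(a⁻¹ : Fˣ), Units.ne_zero _, ?_⟩
      rw [phiL_f, e01, e11, zero_smul, zero_add]
      rfl
    · refine ⟨a, a.ne_zero, ?_⟩
      rw [phiL_e, e00, e10, zero_smul, add_zero]
      rfl
  · refine ⟨1, one_ne_zero, ?_⟩
    rw [phiL_apply, linL_apply]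
    simp only [hn (frame m F) h1, mul_zero, add_zero, zero_smul, one_smul, id]

include hi in
theorem nn_long : nn (frame m F) (adm 1) i = phiL (frame m F) i (dg (-1) * wm) := by
  rw [WittRGD.nn, if_neg hi, ← wm_up', map_mul, map_mul, phiL_up, phiL_lo, nZ, _root_.neg_neg]
  congr 2
  · congr 1
    rw [eq_adm (Frame.Adm.smul _ _), Frame.Adm.smul_c]
    congr 1
    simp [Frame.η, adm, SpIdent.form]
  · rw [eq_adm (Frame.Adm.smul _ _), Frame.Adm.smul_c]
    congr 1
    simp [adm, SpIdent.form]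

variable {W : Type*} [Group W] {cs : CoxeterSystem (CoxeterMatrix.B m) W} {nw : Fin m → PSp m F}

include hi in
theorem bal_long [Finite F] [Finite W] (hA : AmbT (frame m F) p (KInstSp.model m F).I)
    (R : RGD cs (isCartan m) p (WittModel.T (KInstSp.model m F)) nw (WittModel.X (KInstSp.model m F)))
    (hnw : nw i = (KInstSp.model m F).φ ⟨nn (frame m F) (adm 1) i, WittAll.nn_mem hA (adm 1) i⟩) :
    Bal (WittModel.X (KInstSp.model m F)) (WittModel.T (KInstSp.model m F)) nw i :=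
  bal_of (KInstSp.model m F) (phiL_mem hA i) R (phiL_rg hi) (phiL_scalar i) (phiL_mono_dg i)
    ⟨-1, by rw [hnw, fM_apply]; congr 1; exact Subtype.ext (nn_long hi)⟩

include hi in
theorem qq_long (hA : AmbT (frame m F) p (KInstSp.model m F).I) : qq (WittModel.X (KInstSp.model m F)) i = Nat.card F :=
  qq_of (KInstSp.model m F) (phiL_mem hA i) (phiL_rg hi) (phiL_scalar i)

end long

end Cfsg.Agent.H769.OZ
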